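import Cfsg.Agent.Lib.BG.Defs
import Cfsg.Agent.Lib.Extraspecial.Large

/-!
# S3133: normality of an extraspecial group `Q` in `C(z)`, definitions and linear algebra on `W = Q / ⟨z⟩`.  See `docs/S6.md`.
`Fx Q z a`, `Cm Q z a` are the preimages of `C_W(a)`, `[W, a]`.  Convention `⁅k, a⁆ = k * a * k⁻¹ * a⁻¹`, `Z = ⟨z⟩`.
-/

set_option autoImplicit false
set_option linter.unusedSectionVars false

namespace Cfsg.Lib.S6.NL

open Subgroup Cfsg.Lib.BG Cfsg.Lib.ES Cfsg.Lib.Transfer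
open scoped commutatorElement Cfsg.Lib.Transfer

variable {G : Type*} [Group G]

/-- The preimage of `C_W(a)`. -/
def Fx (Q : Subgroup G) (z a : G) : Subgroup G where
  carrier := {k | k ∈ Q ∧ Commute k z ∧ ⁅k, a⁆ ∈ zpowers z}
  one_mem' := ⟨one_mem _, Commute.one_left _, by simp⟩
  mul_mem' := by
    rintro k l ⟨a1, a2, a3⟩ ⟨b1, n, b3, e⟩
    refine ⟨mul_mem a1 b1, a2.mul_left n, ?_⟩
    have : ⁅k * l, a⁆ = k * ⁅l, a⁆ * k⁻¹ * ⁅k, a⁆ := by simp only [commutatorElement_def]; group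
    rw [this, ← e, (a2.zpow_right b3).eq, mul_inv_cancel_right]
    exact mul_mem (zpow_mem_zpowers _ _) a3
  inv_mem' := by
    rintro k ⟨a1, a2, n, e⟩
    refine ⟨inv_mem a1, a2.inv_left, ?_⟩
    have : ⁅k⁻¹, a⁆ = k⁻¹ * ⁅k, a⁆⁻¹ * k := by simp only [commutatorElement_def]; group
    rw [this, ← e, ← zpow_neg, mul_assoc, ← (a2.zpow_right (-n)).eq, inv_mul_cancel_left]
    exact zpow_mem_zpowers _ _

/-- The preimage of `[W, a] = C_W(a)^⊥`. -/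
def Cm (Q : Subgroup G) (z a : G) : Subgroup G := Q ⊓ 𝐂(Fx Q z a)

/-- `[W, a]` is totally singular. -/
def Sg (Q : Subgroup G) (a : G) : Prop := ∀ k ∈ Q, ⁅k, a⁆ * ⁅k, a⁆ = 1

/-- The points: conjugates of `Q` under `C(z)`. -/
def Pt (Q : Subgroup G) (z : G) (Q' : Subgroup G) : Prop := ∃ y, Commute y z ∧ Q' = y ⋆ Q

/-- The class of `t` in `C(z)`. -/
def Zt (t z d : G) : Prop := ∃ y, Commute y z ∧ d = y * t * y⁻¹

/-- `Q` extraspecial with centre `⟨z⟩`. -/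
structure Es (Q : Subgroup G) (z : G) : Prop extends Sy Q z where
  es : IsExtraspecial 2 Q

/-- The hypotheses of the normality lemma. -/
structure Nl (N : Subgroup G) (t z : G) (Q : Subgroup G) : Prop extends Es Q z where
  nm : N.Normal
  le : Q ≤ N
  card : Nat.card Q = 512
  t2 : t * t = 1
  tN : t ∈ 𝐍(Q)
  tz : ∀ k ∈ Fx Q z t, Commute k t
  c0 : Nat.card (Fx Q z t) = 32
  uniq : ∀ y, Commute y z → y * t * y⁻¹ ∈ 𝐍(Q) → y ∈ 𝐍(Q)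
  cen : N ⊓ 𝐂(Q) ≤ Q
  cen0 : N ⊓ 𝐂(Fx Q z t) ≤ Q
  ty : ∀ y ∈ 𝐍(Q), y ∈ N → y * y ∈ Q → y ∉ Q → ∃ m ∈ 𝐍(Q), ∃ a, a * a = 1 ∧ a⁻¹ * y ∈ Q ∧ Commute a (m * t * m⁻¹) ∧
    Fx Q z a ≤ 𝐂[a] ∧ (Nat.card (Fx Q z a) = 32 ∨ Nat.card (Fx Q z a) = 128)
  fr : ∀ m ∈ 𝐍(Q), ⁅m, t⁆ * ⁅m, t⁆ ∈ Q → ⁅m, t⁆ ∈ Q ∨ Nat.card (Fx Q z ⁅m, t⁆) = 32
  tv : ∀ r ∈ Fx Q z t, ∀ c ∈ 𝐍(Q) ⊓ N, ∀ c' ∈ 𝐍(Q) ⊓ N, c ∉ Q → c' ∉ Q → ⁅c, t⁆ ∈ Q → ⁅c', t⁆ ∈ Q →
    (∀ x ∈ Fx Q z t, ⁅x, c⁆ ∈ zpowers r ⊔ zpowers z) → (∀ x ∈ Fx Q z t, ⁅x, c'⁆ ∈ zpowers r ⊔ zpowers z) → c⁻¹ * c' ∈ Q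

variable [Finite G] {N Q Q' Q'' A : Subgroup G} {t z a b d k r y : G}

theorem Fx_le : Fx Q z a ≤ Q := fun _ h => h.1

theorem Cm_le : Cm Q z a ≤ Q := inf_le_left

theorem Fx_conj (g : G) : g ⋆ Fx Q z a = Fx (g ⋆ Q) (g * z * g⁻¹) (g * a * g⁻¹) := by
  ext x
  obtain ⟨y, rfl⟩ := (MulAut.conj g).surjective x
  simp only [MulAut.conj_apply, conj_mem_conj]
  change _ ∧ _ ∧ _ ↔ _ ∧ _ ∧ _
  rw [conj_mem_conj, Commute.conj_iff, ← conjugate_commutatorElement, ← conj_zpowers, conj_mem_conj]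

theorem Cm_conj (g : G) : g ⋆ Cm Q z a = Cm (g ⋆ Q) (g * z * g⁻¹) (g * a * g⁻¹) := by
  rw [Cm, conj_inf, conj_centralizer, Fx_conj]; rfl

/-- `r = d e`, `n > 0` minimal with `r ^ n • a = a` (`MulAction.period`); `d r ^ j = r ^ (-j) d`.  If `n = 2 m` then `d` fixes `r ^ m • a ≠ a`.  So
`n = 2 m + 1`, and `e = r⁻¹ d` fixes `r ^ m • a = (r ^ m d) • a`. -/
theorem swap_aux {Ω : Type*} [MulAction G Ω] {e : G} (hd : d * d = 1) (he : e * e = 1) {p q : Ω} (hp : d • p = p)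
    (h1 : ∀ n : ℕ, d • (d * e) ^ n • p = (d * e) ^ n • p → (d * e) ^ n • p = p)
    (h2 : ∀ n : ℕ, e • (d * e) ^ n • p = (d * e) ^ n • p → (d * e) ^ n • p = q) : ∃ n : ℕ, ((d * e) ^ n * d) • p = q := by
  have i : ∀ m : ℕ, d • (d * e) ^ m • p = ((d * e) ^ m)⁻¹ • p := fun m => by
    rw [← Inv.conj_pow_of_inv (Inv.pair_left_inv hd he), mul_smul, mul_smul, inv_smul_eq_iff.2 hp.symm]
  have s := MulAction.pow_period_smul (d * e) p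
  have o := MulAction.period_pos_of_orderOf_pos (orderOf_pos (d * e)) p
  obtain ⟨m, f | f⟩ := Nat.even_or_odd' (MulAction.period (d * e) p) <;> rw [f] at s
  · have := MulAction.pow_smul_eq_iff_period_dvd.1 (h1 m (by rw [i, inv_smul_eq_iff, ← mul_smul, ← pow_add, ← two_mul, s]))
    exact absurd (Nat.le_of_dvd (by omega) this) (by omega)
  · refine ⟨m, (by rw [mul_smul, hp] : _ = _).trans (h2 m ?_)⟩
    rw [show e • _ = (d * e)⁻¹ • d • (d * e) ^ m • p by rw [← mul_smul _ d, mul_inv_rev, inv_mul_cancel_right, Inv.inv_eq_of_mul_self he],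
      i, inv_smul_eq_iff, inv_smul_eq_iff, ← mul_smul, ← mul_smul, ← pow_succ, ← pow_add, show m + 1 + m = 2 * m + 1 by omega, s]

theorem card_le_two {H K : Subgroup G} (h : ∀ a ∈ K, ∀ b ∈ K, a ∉ H → b ∉ H → a * b ∈ H) : Nat.card K ≤ 2 * Nat.card ↥(H ⊓ K) := by
  by_cases e : K ≤ H
  · rw [inf_eq_right.2 e]; omega
  · obtain ⟨a, a1, a2⟩ := SetLike.not_le_iff_exists.1 e
    rw [← card_mul_relIndex (inf_le_right : H ⊓ K ≤ K), inf_relIndex_right,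
      relIndex_eq_two_iff_exists_notMem_and.2 ⟨a, a1, a2, fun b hb => or_iff_not_imp_right.2 fun n => h b hb a a1 n a2⟩, mul_comm]

theorem mem_two (hr : r ∈ 𝐍(A)) (r2 : r * r ∈ A) : k ∈ A ⊔ zpowers r ↔ k ∈ A ∨ k * r⁻¹ ∈ A := by
  refine ⟨fun h => ?_, fun h => h.elim mem_sup_left fun h => by simpa using mul_mem_sup h (mem_zpowers r)⟩
  obtain ⟨m, hm, n, rfl⟩ := (PGroup.mem_sup_zpowers_iff hr).1 h
  have : ∀ j : ℤ, m * r ^ (2 * j) ∈ A := fun j => mul_mem hm (by rw [zpow_mul, zpow_two]; exact zpow_mem r2 j)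
  obtain ⟨j, rfl | rfl⟩ := Int.even_or_odd' n
  exacts [.inl (this j), .inr (by rw [zpow_add_one, ← mul_assoc, mul_inv_cancel_right]; exact this j)]

theorem zc {w : G} (hk : Commute k z) (hw : w ∈ zpowers z) : Commute k w := let ⟨n, e⟩ := hw; e ▸ hk.zpow_right n

theorem zcj {w : G} (hk : Commute k z) (hw : w ∈ zpowers z) : k * w * k⁻¹ ∈ zpowers z := by rwa [(zc hk hw).mul_inv_cancel]

theorem mem_cen : k ∈ 𝐂(A) ↔ ∀ x ∈ A, Commute x k := mem_centralizer_iff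

theorem mem_cz : k ∈ 𝐂[z] ↔ Commute k z := mem_centralizer_singleton_iff

theorem cm_mul (k a b : G) : ⁅k, a * b⁆ = ⁅k, a⁆ * (a * ⁅k, b⁆ * a⁻¹) := by simp only [commutatorElement_def]; group

theorem mul_cm (k l a : G) : ⁅k * l, a⁆ = k * ⁅l, a⁆ * k⁻¹ * ⁅k, a⁆ := by simp only [commutatorElement_def]; group

theorem conj_cm (a k : G) : a * k * a⁻¹ = ⁅k, a⁆⁻¹ * k := by simp only [commutatorElement_def]; group

theorem cmN (ha : a ∈ 𝐍(Q)) (hk : k ∈ Q) : ⁅k, a⁆ ∈ Q := commutator_mem_of_mem_normalizer' ha hk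

theorem cjN (ha : a ∈ 𝐍(Q)) (hk : k ∈ Q) : a * k * a⁻¹ ∈ Q := (mem_normalizer_iff.1 ha k).1 hk

theorem Pt.refl : Pt Q z Q := ⟨1, .one_left _, (conj_one Q).symm⟩

theorem Pt.conj (h : Pt Q z Q') (hy : Commute y z) : Pt Q z (y ⋆ Q') :=
  let ⟨x, a, e⟩ := h; ⟨y * x, hy.mul_left a, by rw [e, conj_conj]⟩

theorem Pt.trans (h : Pt Q z Q') (h' : Pt Q' z Q'') : Pt Q z Q'' := let ⟨_, a, e⟩ := h'; e ▸ h.conj a

theorem Pt.symm (h : Pt Q z Q') : Pt Q' z Q := let ⟨x, a, e⟩ := h; ⟨x⁻¹, a.inv_left, by rw [e, inv_conj_conj]⟩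

theorem Zt.conj (h : Zt t z d) (hy : Commute y z) : Zt t z (y * d * y⁻¹) :=
  let ⟨x, a, e⟩ := h; ⟨y * x, hy.mul_left a, by rw [e]; group⟩

theorem Zt.trans (h : Zt t z d) (h' : Zt d z a) : Zt t z a := let ⟨_, a, e⟩ := h'; e ▸ h.conj a

theorem Zt.symm (h : Zt t z d) : Zt d z t := let ⟨x, a, e⟩ := h; ⟨x⁻¹, a.inv_left, by rw [e]; group⟩

theorem Zt.refl : Zt t z t := ⟨1, .one_left _, by group⟩

theorem Zt.comm (h : Zt t z d) (tz : Commute t z) : Commute d z := let ⟨_, a, e⟩ := h; e ▸ (a.mul_left tz).mul_left a.inv_left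

theorem Zt.sq (h : Zt t z d) (t2 : t * t = 1) : d * d = 1 := let ⟨_, _, e⟩ := h; by rw [e, conj_mul, t2, mul_one, mul_inv_cancel]

theorem Zt.rfl' (hd : Zt t z d) (he : Zt t z a) (t2 : t * t = 1) (tz : Commute t z) (n : ℕ) : Zt t z ((d * a) ^ n * d) := by
  have i := Inv.inv_eq_of_mul_self (hd.sq t2)
  induction n using Nat.twoStepInduction with
  | zero => simpa
  | one => simpa [i] using he.conj (hd.comm tz)
  | more n h _ =>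
    have := h.conj ((hd.comm tz).mul_left (he.comm tz))
    rwa [mul_inv_rev, i, Inv.inv_eq_of_mul_self (he.sq t2), ← mul_assoc, ← mul_assoc, ← pow_succ', mul_assoc _ d a, ← pow_succ] at this

theorem one' (u : ∀ y, Commute y z → y * t * y⁻¹ ∈ 𝐍(Q) → y ∈ 𝐍(Q)) {x : G} (hx : Commute x z) (h1 : Pt Q z Q')
    (a1 : x * t * x⁻¹ ∈ 𝐍(Q')) : Q' = x ⋆ Q := by
  obtain ⟨y, hy, rfl⟩ := h1
  rw [← conj_normalizer, mem_conj] at a1
  have := conj_eq_self_iff.2 (u (y⁻¹ * x) (hy.inv_left.mul_left hx) (by convert a1 using 1; group))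
  rw [← conj_conj, conj_eq_iff_eq_inv_conj, inv_inv] at this
  exact this.symm

theorem swap' (t2 : t * t = 1) (tz : Commute t z) (tN : t ∈ 𝐍(Q)) (u : ∀ y, Commute y z → y * t * y⁻¹ ∈ 𝐍(Q) → y ∈ 𝐍(Q))
    (h1 : Pt Q z Q') (h2 : Pt Q z Q'') : ∃ s, Zt t z s ∧ s ⋆ Q' = Q'' ∧ s ⋆ Q'' = Q' := by
  obtain ⟨x, hx, rfl⟩ := h1
  obtain ⟨y, hy, rfl⟩ := h2
  have d : Zt t z (x * t * x⁻¹) := ⟨x, hx, rfl⟩
  have e : Zt t z (y * t * y⁻¹) := ⟨y, hy, rfl⟩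
  have c := (d.comm tz).mul_left (e.comm tz)
  let _ : MulAction G (Subgroup G) := { smul := fun g H => g ⋆ H, one_smul := conj_one, mul_smul := fun a b H => (conj_conj a b H).symm }
  have p : ∀ n : ℕ, Pt Q z (_ ^ n ⋆ (x ⋆ Q)) := fun n => (Pt.refl.conj hx).conj (c.pow_left n)
  obtain ⟨n, f⟩ := swap_aux (p := x ⋆ Q) (q := y ⋆ Q) (d.sq t2) (e.sq t2)
    (conj_eq_self_iff.2 (by rwa [← conj_normalizer, conj_mem_conj]))
    (fun n f => one' u hx (p n) (conj_eq_self_iff.1 f)) fun n f => one' u hy (p n) (conj_eq_self_iff.1 f)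
  have s := d.rfl' e t2 tz n
  refine ⟨_, s, f, ?_⟩
  rw [← show _ ⋆ _ = _ from f, conj_conj, s.sq t2, conj_one]

namespace Es

variable (h : Es Q z) {w x : G}
include h

theorem conj' (g : G) : Es (g ⋆ Q) (g * z * g⁻¹) := ⟨h.toSy.conj g, isExtraspecial_conj h.es g⟩

theorem conj (hy : Commute y z) : Es (y ⋆ Q) z := by simpa [hy.mul_inv_cancel] using h.conj' y

theorem pt' (hQ : Pt Q z Q') : Es Q' z := let ⟨_, a, e⟩ := hQ; e ▸ h.conj a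

/-- `inf_centralizer_eq_zpowers`. -/
theorem cen_eq : Q ⊓ 𝐂(Q) = zpowers z := inf_centralizer_eq_zpowers h.es h.mem h.ne_one h.cent

theorem norm_comm (hy : y ∈ 𝐍(Q)) : Commute y z := by
  have : y * z * y⁻¹ ∈ zpowers z := by
    rw [← h.cen_eq, ← conj_eq_self_iff.2 hy, ← conj_centralizer, ← conj_inf, conj_mem_conj]; exact ⟨h.mem, h.mem_centralizer⟩
  exact mul_inv_eq_iff_eq_mul.1 ((h.mem_iff.1 this).resolve_left fun e => h.ne_one (by simpa using e))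

theorem qz (hk : k ∈ Q) : Commute k z := h.comm hk

theorem zq (hw : w ∈ zpowers z) : w ∈ Q := h.zpowers_le hw

theorem z2 (hw : w ∈ zpowers z) : w * w = 1 := by
  rcases h.mem_iff.1 hw with rfl | rfl
  exacts [one_mul 1, h.mul_self]

theorem sq (hk : k ∈ Q) : k * k ∈ zpowers z := pow_two k ▸ h.sq_mem k hk

theorem zz (hw : w ∈ zpowers z) (hx : x ∈ zpowers z) : w * x = 1 ↔ (w = 1 ↔ x = 1) := by
  rcases h.mem_iff.1 hw with rfl | e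
  · simp
  · rcases h.mem_iff.1 hx with rfl | f
    · simp
    · simp [e, f, h.mul_self]

theorem cm' (hx : Commute x z) (h1 : ⁅k, x⁆ ∈ zpowers z) (h2 : ⁅k, y⁆ ∈ zpowers z) : Commute k (x * y) ↔ (Commute k x ↔ Commute k y) := by
  simp only [← commutatorElement_eq_one_iff_commute]
  rw [cm_mul, (zc hx h2).mul_inv_cancel, h.zz h1 h2]

theorem cm (hk : k ∈ Q) (hx : x ∈ Q) (hy : y ∈ Q) : Commute k (x * y) ↔ (Commute k x ↔ Commute k y) :=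
  h.cm' (h.qz hx) (h.commutator_mem hk hx) (h.commutator_mem hk hy)

theorem sq_mul (hx : x ∈ Q) (hy : y ∈ Q) : x * y * (x * y) = 1 ↔ ((x * x = 1 ↔ y * y = 1) ↔ Commute x y) := by
  have c := h.commutator_mem (inv_mem hx) hy
  rw [show x * y * (x * y) = x * x * ⁅x⁻¹, y⁆ * (y * y) by simp only [commutatorElement_def]; group, h.zz (mul_mem (h.sq hx) c) (h.sq hy),
    h.zz (h.sq hx) c, commutatorElement_eq_one_iff_commute, Commute.inv_left_iff]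
  tauto

theorem cen_z (hx : x ∈ Q) (e : ∀ k ∈ Q, Commute k x) : x ∈ zpowers z := h.cen_eq.le ⟨hx, e⟩

theorem mem_Fx : k ∈ Fx Q z a ↔ k ∈ Q ∧ ⁅k, a⁆ ∈ zpowers z := ⟨fun e => ⟨e.1, e.2.2⟩, fun e => ⟨e.1, h.qz e.1, e.2⟩⟩

theorem z_Fx (ha : a ∈ 𝐍(Q)) : z ∈ Fx Q z a :=
  h.mem_Fx.2 ⟨h.mem, (commutatorElement_eq_one_iff_commute.2 (h.norm_comm ha).symm) ▸ one_mem _⟩

theorem z_Cm : z ∈ Cm Q z a := ⟨h.mem, fun _ e => e.2.1⟩

theorem nrm (hA : A ≤ Q) (hz : z ∈ A) : Q ≤ 𝐍(A) := h.le_normalizer_of_mem hA hz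

theorem mem_rz (hr : r ∈ Q) : k ∈ zpowers r ⊔ zpowers z ↔ k ∈ zpowers z ∨ k * r⁻¹ ∈ zpowers z := by
  rw [sup_comm]; exact mem_two (h.nrm h.zpowers_le (mem_zpowers z) hr) (h.sq hr)

theorem card_two (hA : A ≤ Q) (hz : z ∈ A) (hr : r ∈ Q) (r1 : r ∉ A) : Nat.card ↥(A ⊔ zpowers r) = 2 * Nat.card A :=
  PGroup.card_sup_zpowers (h.nrm hA hz hr) r1 (zpowers_le.2 hz (h.sq_mem r hr))

theorem card_rz (hr : r ∈ Q) (r1 : r ∉ zpowers z) : Nat.card ↥(zpowers r ⊔ zpowers z) = 4 := by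
  rw [sup_comm, h.card_two h.zpowers_le (mem_zpowers z) hr r1, h.card_zpowers]

/-- `ES.card_centralizer_mul`. -/
theorem perp_card (hA : A ≤ Q) (hz : z ∈ A) : Nat.card ↥(Q ⊓ 𝐂(A)) * Nat.card A = 2 * Nat.card Q := by
  have := card_centralizer_mul h.es (A.subgroupOf Q)
  rwa [← card_map_of_injective Q.subtype_injective, ← card_map_of_injective (K := _ ⊔ _) Q.subtype_injective, Core.map_subtype_centralizer,
    Subgroup.map_sup, PGroup.map_subtype_center, subgroupOf_map_subtype, inf_eq_left.2 hA, h.cen_eq, sup_eq_left.2 (zpowers_le.2 hz)] at this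

/-- `inf_centralizer_inf_centralizer`. -/
theorem perp_perp (hA : A ≤ Q) (hz : z ∈ A) : Q ⊓ 𝐂(Q ⊓ 𝐂(A)) = A := by
  rw [inf_centralizer_inf_centralizer h.es hA, h.cen_eq, sup_eq_left.2 (zpowers_le.2 hz)]

theorem perp_Cm (ha : a ∈ 𝐍(Q)) : Q ⊓ 𝐂(Cm Q z a) = Fx Q z a := h.perp_perp Fx_le (h.z_Fx ha)

theorem card_Cm (ha : a ∈ 𝐍(Q)) : Nat.card (Cm Q z a) * Nat.card (Fx Q z a) = 2 * Nat.card Q := h.perp_card Fx_le (h.z_Fx ha)

theorem comm_congr' (ha : a ∈ 𝐍(Q)) (e : a⁻¹ * b ∈ Q) (hk : k ∈ Q) : ∃ w ∈ zpowers z, ⁅k, b⁆ = ⁅k, a⁆ * w :=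
  have c := h.commutator_mem hk e
  ⟨_, c, by rw [← (zc (h.norm_comm ha) c).mul_inv_cancel, ← cm_mul, mul_inv_cancel_left]⟩

/-- `⁅k, a w⁆ = ⁅k, a⁆ * a ⁅k, w⁆ a⁻¹`. -/
theorem comm_congr (ha : a ∈ 𝐍(Q)) (e : a⁻¹ * b ∈ Q) (hk : k ∈ Q) : ⁅k, b⁆ = ⁅k, a⁆ ∨ ⁅k, b⁆ = ⁅k, a⁆ * z := by
  obtain ⟨w, m, f⟩ := h.comm_congr' ha e hk
  exact (h.mem_iff.1 m).imp (fun g => by rw [f, g, mul_one]) fun g => by rw [f, g]

theorem Fx_congr (ha : a ∈ 𝐍(Q)) (e : a⁻¹ * b ∈ Q) : Fx Q z b = Fx Q z a := ext fun k => by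
  rw [h.mem_Fx, h.mem_Fx]
  refine and_congr_right fun hk => ?_
  obtain ⟨w, m, f⟩ := h.comm_congr' ha e hk
  rw [f, mul_mem_cancel_right m]

theorem Cm_congr (ha : a ∈ 𝐍(Q)) (e : a⁻¹ * b ∈ Q) : Cm Q z b = Cm Q z a := by rw [Cm, h.Fx_congr ha e]; rfl

theorem cm_cm (ha : a ∈ 𝐍(Q)) (hk : k ∈ Q) (hx : x ∈ Q) : Commute x ⁅k, a⁆ ↔ Commute k ⁅x, a⁻¹⁆ := by
  have e : ∀ {a k x : G}, a ∈ 𝐍(Q) → k ∈ Q → x ∈ Q → (Commute x ⁅k, a⁆ ↔ (Commute x k ↔ Commute x (a * k * a⁻¹))) := fun {a k x} ha hk hx => by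
    rw [show ⁅k, a⁆ = k * (a * k * a⁻¹)⁻¹ by simp only [commutatorElement_def]; group, h.cm hx hk (inv_mem (cjN ha hk)), Commute.inv_right_iff]
  rw [e ha hk hx, e (inv_mem ha) hx hk, ← Commute.conj_iff (a := k) (b := a⁻¹ * x * a⁻¹⁻¹) a, Commute.symm_iff (a := k),
    show a * (a⁻¹ * x * a⁻¹⁻¹) * a⁻¹ = x by group, Commute.symm_iff (b := x)]

omit h in
theorem cm_inv (k a : G) : ⁅k, a⁻¹⁆ = a⁻¹ * ⁅k, a⁆⁻¹ * a⁻¹⁻¹ := by simp only [commutatorElement_def]; group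

theorem cm_inv_z (ha : Commute a z) : ⁅k, a⁻¹⁆ ∈ zpowers z ↔ ⁅k, a⁆ ∈ zpowers z := by
  have : ∀ {a : G}, Commute a z → ⁅k, a⁆ ∈ zpowers z → ⁅k, a⁻¹⁆ ∈ zpowers z := fun ha e => by
    rw [cm_inv, (zc ha.inv_left (inv_mem e)).mul_inv_cancel]; exact inv_mem e
  exact ⟨fun e => by simpa using this ha.inv_left e, this ha⟩

theorem Fx_inv (ha : a ∈ 𝐍(Q)) : Fx Q z a⁻¹ = Fx Q z a := ext fun k => by rw [h.mem_Fx, h.mem_Fx, h.cm_inv_z (h.norm_comm ha)]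

/-- `⁅k, a⁆ = k * (a k⁻¹ a⁻¹)`; `f ∈ Fx` commutes with `k` iff `a f a⁻¹ ∈ f Z` commutes with `a k a⁻¹`; the commutators lie in `Z`. -/
theorem comm_mem (ha : a ∈ 𝐍(Q)) (hk : k ∈ Q) : ⁅k, a⁆ ∈ Cm Q z a :=
  ⟨cmN ha hk, fun _ e => (h.cm_cm ha hk e.1).2 (zc (h.qz hk) ((h.cm_inv_z (h.norm_comm ha)).2 e.2.2))⟩

theorem exists_comm' (ha : a ∈ 𝐍(Q)) (hr : r ∈ Cm Q z a) : ∃ k ∈ Q, ∃ w ∈ zpowers z, r = ⁅k, a⁆ * w := by
  let M : Subgroup G :=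
    { carrier := {r | ∃ k ∈ Q, ∃ w ∈ zpowers z, r = ⁅k, a⁆ * w}
      one_mem' := ⟨1, one_mem _, 1, one_mem _, by simp⟩
      mul_mem' := by
        rintro _ _ ⟨k, hk, v, hv, rfl⟩ ⟨l, hl, w, hw, rfl⟩
        have c := h.commutator_mem (cmN ha hk) hl
        refine ⟨l * k, mul_mem hl hk, _, mul_mem (mul_mem c hv) hw, ?_⟩
        rw [mul_cm, conj_cm l, mul_assoc _ v, ← mul_assoc v, ← (zc (h.qz (cmN ha hl)) hv).eq, mul_assoc _⁻¹,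
          ← (zc (h.qz (mul_mem (cmN ha hk) (cmN ha hl))) (inv_mem c)).eq]
        group
      inv_mem' := by
        rintro _ ⟨k, hk, v, hv, rfl⟩
        refine ⟨k, hk, _, mul_mem (inv_mem (h.sq (cmN ha hk))) (inv_mem hv), ?_⟩
        rw [(zc (h.qz (cmN ha hk)) hv).eq]; group }
  have m : M ≤ Q := by rintro _ ⟨k, hk, v, hv, rfl⟩; exact mul_mem (cmN ha hk) (h.zq hv)
  refine (h.perp_perp m ⟨1, one_mem _, z, mem_zpowers z, by simp⟩).le ⟨hr.1, fun x e => hr.2 x (h.mem_Fx.2 ⟨e.1, ?_⟩)⟩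
  exact (h.cm_inv_z (h.norm_comm ha)).1 (h.cen_z (cmN (inv_mem ha) e.1) fun k hk =>
    (h.cm_cm ha hk e.1).1 (Commute.symm (e.2 _ ⟨k, hk, 1, one_mem _, (mul_one _).symm⟩)))

/-- `k ↦ ⁅k, a⁆ Z` is a homomorphism `Q → Cm / Z` with kernel `Fx`; `perp_card`. -/
theorem exists_comm (ha : a ∈ 𝐍(Q)) (hr : r ∈ Cm Q z a) : ∃ k ∈ Q, r = ⁅k, a⁆ ∨ r = ⁅k, a⁆ * z := by
  obtain ⟨k, hk, w, m, f⟩ := h.exists_comm' ha hr
  exact ⟨k, hk, (h.mem_iff.1 m).imp (fun g => by rw [f, g, mul_one]) fun g => by rw [f, g]⟩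

theorem Cm_le' (ha : a ∈ 𝐍(Q)) (hz : z ∈ A) (e : ∀ k ∈ Q, ⁅k, a⁆ ∈ A) : Cm Q z a ≤ A := fun _ hr =>
  let ⟨k, hk, _, m, f⟩ := h.exists_comm' ha hr; f ▸ mul_mem (e k hk) (zpowers_le.2 hz m)

theorem conj_t' (ha : a ∈ 𝐍(Q)) (hr : r ∈ Cm Q z a) : ∃ k ∈ Q, r * a = k * a * k⁻¹ ∨ r * z * a = k * a * k⁻¹ :=
  let ⟨k, hk, f⟩ := h.exists_comm ha hr
  ⟨k, hk, f.imp (fun f => by rw [f, commutatorElement_def, inv_mul_cancel_right]) fun f => by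
    rw [f, mul_assoc _ z z, h.mul_self, mul_one, commutatorElement_def, inv_mul_cancel_right]⟩

/-- For `c = ⁅k, a⁆`: `c * (a c a⁻¹) = ⁅k, a * a⁆ ∈ Z`, and `c * c ∈ Z`. -/
theorem Cm_le_Fx (ha : a ∈ 𝐍(Q)) (h2 : a * a ∈ Q) : Cm Q z a ≤ Fx Q z a := h.Cm_le' ha (h.z_Fx ha) fun k hk => by
  have c := h.commutator_mem hk h2
  rw [cm_mul] at c
  refine h.mem_Fx.2 ⟨cmN ha hk, ?_⟩
  convert mul_mem c (zcj (h.norm_comm ha) (inv_mem (h.sq (cmN ha hk)))) using 1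
  rw [commutatorElement_def ⁅k, a⁆]; group

theorem sq_z (hk : Commute k z) (hw : w ∈ zpowers z) (k2 : k * k = 1) : k * w * (k * w) = 1 := by
  rw [(zc hk hw).symm.mul_mul_mul_comm, k2, h.z2 hw, one_mul]

/-- `⁅k, a⁆ ∈ Fx` is centralized and inverted by `a`; `comm_congr`. -/
theorem sg_of (ha : a ∈ 𝐍(Q)) (h2 : a * a = 1) (hF : Fx Q z a ≤ 𝐂[a]) (e : a⁻¹ * y ∈ Q) : Sg Q y := fun k hk => by
  obtain ⟨w, m, f⟩ := h.comm_congr' ha e hk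
  have := cm_mul k a a
  rw [h2, commutatorElement_one_right, (mem_cz.1 (hF (h.Cm_le_Fx ha (h2 ▸ one_mem _) (h.comm_mem ha hk)))).symm.mul_inv_cancel] at this
  exact f ▸ h.sq_z (h.qz (cmN ha hk)) m this.symm

/-- `y` inverts `⁅k, y⁆`; `exists_comm`. -/
theorem Cm_cen (hy : y ∈ 𝐍(Q)) (h2 : y * y ∈ zpowers z) (s : Sg Q y) : Cm Q z y ≤ 𝐂[y] :=
  h.Cm_le' hy (mem_cz.2 (h.norm_comm hy).symm) fun k hk => by
    have := cm_mul k y y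
    rw [commutatorElement_eq_one_iff_commute.2 (zc (h.qz hk) h2), ← s k hk, mul_right_inj, eq_mul_inv_iff_mul_eq] at this
    exact mem_cz.2 this

theorem Cm_sq (hy : y ∈ 𝐍(Q)) (s : Sg Q y) (hr : r ∈ Cm Q z y) : r * r = 1 :=
  let ⟨k, hk, _, m, f⟩ := h.exists_comm' hy hr; f ▸ h.sq_z (h.qz (cmN hy hk)) m (s k hk)

/-- `c = k k'`, `k' = y k⁻¹ y⁻¹`, `k * k = k' * k' ∈ Z`, so `c * c = 1` means that `k, k'` commute. -/
theorem alt (hy : y ∈ 𝐍(Q)) (s : Sg Q y) (hk : k ∈ Q) : Commute k ⁅k, y⁆ := by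
  have := s k hk
  rw [show ⁅k, y⁆ = k * (y * k⁻¹ * y⁻¹) by simp only [commutatorElement_def]; group] at this ⊢
  refine (Commute.refl k).mul_right (((h.sq_mul hk (cjN hy (inv_mem hk))).1 this).1 ?_)
  rw [conj_mul, conj_eq_one_iff, ← mul_inv_rev, inv_eq_one]

/-- `|Cm| = 8`.  If `c = ⁅k, y⁆ ∉ ⟨r, z⟩` then `Cm = ⟨r, c, z⟩` is centralized by `k` (`alt`), so `k ∈ Fx` (`perp_Cm`) and `c ∈ Z`. -/
theorem root (hy : y ∈ 𝐍(Q)) (s : Sg Q y) (c : 4 * Nat.card (Fx Q z y) = Nat.card Q) (hr : r ∈ Cm Q z y) (r1 : r ∉ zpowers z)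
    (hk : k ∈ Q) (kr : Commute k r) : ⁅k, y⁆ ∈ zpowers r ⊔ zpowers z := by
  by_contra n
  have l : zpowers r ⊔ zpowers z ≤ Cm Q z y := sup_le (zpowers_le.2 hr) (zpowers_le.2 h.z_Cm)
  have c1 := h.card_two (l.trans Cm_le) (mem_sup_right (mem_zpowers z)) (cmN hy hk) n
  have c2 := h.card_Cm hy
  rw [← c, ← mul_assoc, Nat.mul_left_inj Nat.card_pos.ne'] at c2
  have e := eq_of_le_of_card_ge (sup_le l (zpowers_le.2 (h.comm_mem hy hk))) (by rw [c1, c2, h.card_rz hr.1 r1])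
  have : Cm Q z y ≤ 𝐂[k] := e ▸ sup_le (sup_le (zpowers_le.2 (mem_cz.2 kr.symm)) (zpowers_le.2 (mem_cz.2 (h.qz hk).symm)))
    (zpowers_le.2 (mem_cz.2 (h.alt hy s hk).symm))
  exact n (mem_sup_right ((h.perp_Cm hy).le ⟨hk, fun x m => mem_cz.1 (this m)⟩).2.2)

theorem rz_cen (hk : Commute k z) (kr : Commute k r) (hx : x ∈ zpowers r ⊔ zpowers z) : Commute k x :=
  (mem_cz.1 (sup_le (zpowers_le.2 (mem_cz.2 kr.symm)) (zpowers_le.2 (mem_cz.2 hk.symm)) hx)).symm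

theorem perp_rz (hr : r ∈ Q) (hx : x ∈ Q) (e : ∀ k ∈ Q, Commute k r → Commute k x) : x ∈ zpowers r ⊔ zpowers z :=
  (h.perp_perp (sup_le (zpowers_le.2 hr) h.zpowers_le) (mem_sup_right (mem_zpowers z))).le
    ⟨hx, fun k m => e k m.1 (Commute.symm (m.2 r (mem_sup_left (mem_zpowers r))))⟩

/-- `c * c` centralizes `(Q ⊓ C(r)) / Z`, so `Cm Q z (c * c) ≤ ⟨r, z⟩` is elementary: `Sg Q (c * c)`.  By `alt` each `k ∈ Q` commutes with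
`⁅k, c * c⁆`; this commutator lies in `Z` for `k ∈ C(r)`, and for `k ∉ C(r)` because `k` commutes with neither `r` nor `r z`.
The map `k ↦ ⁅k, c⁆ Z` on `Q ⊓ C(r)` has image of order `≤ 2`. -/
theorem eich {c : G} (hc : c ∈ 𝐍(Q)) (hr : r ∈ Fx Q z c) (r2 : r * r = 1) (r1 : r ∉ zpowers z)
    (e : ∀ k ∈ Q, Commute k r → ⁅k, c⁆ ∈ zpowers r ⊔ zpowers z) :
    Fx Q z (c * c) = Q ∧ Nat.card Q ≤ 4 * Nat.card (Fx Q z c) := by
  have c2 := mul_mem hc hc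
  have a1 : ∀ k ∈ Q, Commute k r → ⁅k, c * c⁆ ∈ zpowers z := fun k hk kr => by
    have u : ⁅k, c⁆ ∈ Fx Q z c := sup_le (zpowers_le.2 hr) (zpowers_le.2 (h.z_Fx hc)) (e k hk kr)
    rw [cm_mul, conj_cm c, ← mul_assoc, (zc u.2.1 (inv_mem u.2.2)).eq, mul_assoc]
    exact mul_mem (inv_mem u.2.2) (h.sq u.1)
  have a2 : ∀ k ∈ Q, ⁅k, c * c⁆ ∈ zpowers r ⊔ zpowers z := fun k hk =>
    h.perp_rz hr.1 (cmN c2 hk) fun l hl lr => (h.comm_mem c2 hk).2 l (h.mem_Fx.2 ⟨hl, a1 l hl lr⟩)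
  have s : Sg Q (c * c) := fun k hk => ((h.mem_rz hr.1).1 (a2 k hk)).elim h.z2 fun m => by
    have := h.sq_z hr.2.1 m r2
    rwa [(zc hr.2.1 m).eq, inv_mul_cancel_right] at this
  refine ⟨Fx_le.antisymm fun k hk => h.mem_Fx.2 ⟨hk, ((h.mem_rz hr.1).1 (a2 k hk)).elim id fun m => a1 k hk ?_⟩, ?_⟩
  · simpa only [mul_inv_rev, inv_inv, inv_mul_cancel_right] using (zc (h.qz hk) m).inv_right.mul_right (h.alt c2 s hk)
  · have c1 := card_le_two (H := 𝐂[r]) (K := Q) fun a ha b hb a1 b1 => mem_cz.2 (Commute.symm ((h.cm hr.1 ha hb).2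
      (iff_of_false (fun e => a1 (mem_cz.2 e.symm)) fun e => b1 (mem_cz.2 e.symm))))
    have c3 := card_le_two (H := Fx Q z c) (K := 𝐂[r] ⊓ Q) fun a ha b hb a1 b1 => h.mem_Fx.2 ⟨mul_mem ha.2 hb.2, by
      have f : ∀ a ∈ 𝐂[r] ⊓ Q, a ∉ Fx Q z c → ⁅a, c⁆ * r⁻¹ ∈ zpowers z := fun a ha a1 =>
        ((h.mem_rz hr.1).1 (e a ha.2 (mem_cz.1 ha.1))).resolve_left fun m => a1 (h.mem_Fx.2 ⟨ha.2, m⟩)
      rw [mul_cm, (h.rz_cen (h.qz ha.2) (mem_cz.1 ha.1) (e b hb.2 (mem_cz.1 hb.1))).mul_inv_cancel]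
      convert mul_mem (f b hb b1) (zcj hr.2.1 (f a ha a1)) using 1
      rw [mul_assoc r, mul_assoc ⁅a, c⁆, ← mul_inv_rev, r2]; group⟩
    have := card_le_of_le (inf_le_left : Fx Q z c ⊓ (𝐂[r] ⊓ Q) ≤ _)
    omega

end Es

theorem all_conj {p : G → Prop} (g : G) (h : ∀ x, p (g * x * g⁻¹)) (x : G) : p x := (MulAut.conj g).surjective.forall.2 h x

theorem conj_cz (g a : G) : g ⋆ 𝐂[a] = 𝐂[g * a * g⁻¹] := map_conj_centralizer_singleton g a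

namespace Nl

variable (h : Nl N t z Q)
include h

theorem conj' (g : G) : Nl (g ⋆ N) (g * t * g⁻¹) (g * z * g⁻¹) (g ⋆ Q) where
  toEs := h.toEs.conj' g
  nm := h.nm.map _ (MulAut.conj g).surjective
  le := conj_mono g h.le
  card := (card_conj g Q).trans h.card
  t2 := by rw [conj_mul, h.t2, mul_one, mul_inv_cancel]
  tN := by rw [← conj_normalizer, conj_mem_conj]; exact h.tN
  tz := all_conj g (by simpa only [← Fx_conj, conj_mem_conj, Commute.conj_iff] using h.tz)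
  c0 := by rw [← Fx_conj, card_conj, h.c0]
  uniq := all_conj g (by simpa only [← conj_normalizer, conj_mem_conj, Commute.conj_iff, conj_mul, conj_inv] using h.uniq)
  cen := by rw [← conj_centralizer, ← conj_inf]; exact conj_mono g h.cen
  cen0 := by rw [← Fx_conj, ← conj_centralizer, ← conj_inf]; exact conj_mono g h.cen0
  ty := all_conj g fun y => by
    simp only [← conj_normalizer, conj_mem_conj, conj_mul]
    intro a1 a2 a3 a4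
    obtain ⟨m, b1, a, b2, b⟩ := h.ty y a1 a2 a3 a4
    refine ⟨g * m * g⁻¹, conj_mem_conj.2 b1, g * a * g⁻¹, by rw [conj_mul, b2, mul_one, mul_inv_cancel], ?_⟩
    simpa only [conj_mem_conj, conj_mul, conj_inv, Commute.conj_iff, ← Fx_conj, ← conj_cz, card_conj, conj_le_conj_iff] using b
  fr := all_conj g (by
    simpa only [← conj_normalizer, conj_mem_conj, conj_mul, ← conjugate_commutatorElement, ← Fx_conj, card_conj] using h.fr)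
  tv := all_conj g fun r hr => all_conj g fun c hc => all_conj g fun c' hc' a1 a2 a3 a4 a5 a6 => by
    have a5 := fun x => a5 (g * x * g⁻¹)
    have a6 := fun x => a6 (g * x * g⁻¹)
    simp only [← conj_normalizer, conj_mem_conj, conj_mul, conj_inv, ← conjugate_commutatorElement, ← Fx_conj, ← conj_inf, ← conj_zpowers,
      ← conj_sup] at *
    exact h.tv r hr c hc c' hc' a1 a2 a3 a4 a5 a6

theorem conj (hy : Commute y z) : Nl N (y * t * y⁻¹) z (y ⋆ Q) := by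
  have := h.nm
  simpa only [hy.mul_inv_cancel, conj_eq_self_of_normal] using h.conj' y

theorem pt (hQ : Pt Q z Q') : ∃ d, Zt t z d ∧ Nl N d z Q' := let ⟨y, a, b⟩ := hQ; ⟨_, ⟨y, a, rfl⟩, b ▸ h.conj a⟩

/-- `exists_inv_mul_mem_centralizer`, `cen`. -/
theorem faith (hy : y ∈ N) (e : Fx Q z y = Q) : y ∈ Q := by
  obtain ⟨x, hx, c⟩ := exists_inv_mul_mem_centralizer h.es (g := y) fun x hx => by
    rw [h.cen_eq, ← commutatorElement_inv]; exact inv_mem (e.ge hx).2.2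
  simpa using mul_mem hx (h.cen ⟨N.mul_mem (inv_mem (h.le hx)) hy, c⟩)

/-- An element of the class of `t` fixes at most one point (`uniq`). -/
theorem one (hd : Zt t z d) (h1 : Pt Q z Q') (h2 : Pt Q z Q'') (a1 : d ∈ 𝐍(Q')) (a2 : d ∈ 𝐍(Q'')) : Q' = Q'' := by
  obtain ⟨x, hx, rfl⟩ := hd
  rw [one' h.uniq hx h1 a1, one' h.uniq hx h2 a2]

/-- If `d = y t y⁻¹` normalizes `Q' = y' ⋆ Q` then `Q' = y ⋆ Q`. -/
theorem of_fix (hd : Zt t z d) (h1 : Pt Q z Q') (a1 : d ∈ 𝐍(Q')) : Nl N d z Q' := by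
  obtain ⟨x, hx, rfl⟩ := hd
  exact one' h.uniq hx h1 a1 ▸ h.conj hx

/-- `swap_aux` for the conjugation action on subgroups; the reflections `(d e) ^ n d` are conjugate to `d` or `e` (`ZD.refl_conj`). -/
theorem swap (h1 : Pt Q z Q') (h2 : Pt Q z Q'') : ∃ s, Zt t z s ∧ s ⋆ Q' = Q'' ∧ s ⋆ Q'' = Q' :=
  swap' h.t2 (h.norm_comm h.tN) h.tN h.uniq h1 h2

theorem Cm_eq (hy : y ∈ 𝐍(Q)) (y2 : y * y ∈ Q) (c : Nat.card (Fx Q z y) = 32) : Cm Q z y = Fx Q z y :=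
  eq_of_le_of_card_ge (h.Cm_le_Fx hy y2) (by have := h.card_Cm hy; rw [c, h.card] at this; omega)

/-- `Cm = Fx` (orders), `exists_comm`: `k t k⁻¹ = ⁅k, t⁆ t`. -/
theorem conj_t (hr : r ∈ Fx Q z t) : ∃ k ∈ Q, r * t = k * t * k⁻¹ ∨ r * z * t = k * t * k⁻¹ :=
  h.conj_t' h.tN ((h.Cm_eq h.tN (h.t2 ▸ one_mem _) h.c0).ge hr)

/-- `ty`.  In the first case `w = a⁻¹ y ∈ Fx Q z a = Cm Q z a` (as `y * y ∈ Z`), so `y ∈ k a k⁻¹ Z` commutes with `k m t m⁻¹ k⁻¹`. -/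
theorem dich (hy : y ∈ 𝐍(Q)) (hN : y ∈ N) (y2 : y * y ∈ zpowers z) (y1 : y ∉ Q) : Sg Q y ∧
    ((Nat.card (Fx Q z y) = 32 ∧ ∃ d, Zt t z d ∧ d ∈ 𝐍(Q) ∧ Commute y d) ∨
      Nat.card (Fx Q z y) = 128 ∧ ∃ d, Zt t z d ∧ d ∈ 𝐍(Q) ∧ ⁅y, d⁆ ∈ Q) := by
  obtain ⟨m, hm, a, a2, e, c, f, n⟩ := h.ty y hy hN (h.zq y2) y1
  have ha : a ∈ 𝐍(Q) := by simpa using mul_mem hy (inv_mem (le_normalizer e))
  have d : Zt t z _ := ⟨m, h.norm_comm hm, rfl⟩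
  have dN := mul_mem (mul_mem hm h.tN) (inv_mem hm)
  generalize m * t * m⁻¹ = d at *
  obtain ⟨w, rfl⟩ : ∃ w, y = a * w := ⟨a⁻¹ * y, by group⟩
  rw [h.Fx_congr ha e]
  refine ⟨h.sg_of ha a2 f e, n.imp (fun n => ⟨n, ?_⟩) fun n => ⟨n, _, d, dN, ?_⟩⟩ <;> rw [inv_mul_cancel_left] at e
  · have i := Inv.inv_eq_of_mul_self a2
    have : w⁻¹ ∈ Fx Q z a := inv_mem (h.mem_Fx.2 ⟨e, by
      convert mul_mem (zcj (h.norm_comm ha) y2) (zcj (h.norm_comm ha) (inv_mem (h.sq e))) using 1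
      rw [commutatorElement_def, mul_assoc a w, ← mul_assoc a a, a2]; group⟩)
    obtain ⟨k, hk, v, hv, g⟩ := h.exists_comm' ha ((h.Cm_eq ha (a2 ▸ one_mem _) n).ge this)
    refine ⟨_, d.conj (h.qz hk), mul_mem (mul_mem (le_normalizer hk) dN) (inv_mem (le_normalizer hk)), ?_⟩
    rw [← Commute.inv_left_iff, mul_inv_rev, g, i, mul_assoc, ← (zc (h.norm_comm ha) hv).eq, ← mul_assoc, commutatorElement_def, inv_mul_cancel_right]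
    exact ((Commute.conj_iff k).2 c).mul_left (zc ((d.conj (h.qz hk)).comm (h.norm_comm h.tN)) hv).symm
  · rw [mul_cm, commutatorElement_eq_one_iff_commute.2 c, mul_one]
    exact cjN ha (cmN dN e)

end Nl

end Cfsg.Lib.S6.NL
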