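import Cfsg.Agent.Lib.S6.NA

/-!
# S3133, normality lemma: `Q` is weakly closed.
-/

set_option autoImplicit false
set_option linter.unusedSectionVars false

namespace Cfsg.Lib.S6.NL

open Subgroup Cfsg.Lib.BG Cfsg.Lib.ES Cfsg.Lib.Transfer
open scoped commutatorElement Cfsg.Lib.Transfer

variable {G : Type*} [Group G] [Finite G] {N Q Q' Q'' A V S : Subgroup G} {t z a b d k r y : G}

theorem wc' (t2 : t * t = 1) (tz : Commute t z) (tN : t ∈ 𝐍(Q)) (u : ∀ y, Commute y z → y * t * y⁻¹ ∈ 𝐍(Q) → y ∈ 𝐍(Q))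
    (w : ∀ Q', Pt Q z Q' → Q' ≤ 𝐍(Q) → Q ≤ 𝐍(Q') → Q' = Q) (h1 : Pt Q z Q') (h2 : Pt Q z Q'') (e : Q'' ≤ 𝐍(Q')) : Q'' = Q' := by
  obtain ⟨s, -, s1, s2⟩ := swap' t2 tz tN u h1 h2
  have f := conj_mono s e
  rw [conj_normalizer, s1, s2] at f
  obtain ⟨x, hx, rfl⟩ := h1
  exact conj_eq_iff_eq_inv_conj.1 (w _ (h2.conj hx.inv_left) (by rwa [conj_le_iff_le_inv_conj, inv_inv, conj_normalizer])
    (by rwa [← conj_normalizer, ← conj_le_iff_le_inv_conj])) |>.trans (by rw [inv_inv])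

theorem wc_two' (w : ∀ {Q' Q''}, Pt Q z Q' → Pt Q z Q'' → Q'' ≤ 𝐍(Q') → Q'' = Q') (h1 : Pt Q z Q') (hS : IsPGroup 2 S) (hz : S ≤ 𝐂[z])
    (e : Q' ≤ S) : S ≤ 𝐍(Q') := by
  by_contra n
  obtain ⟨g, ⟨a, b⟩, c⟩ := SetLike.exists_of_lt (lt_inf_normalizer_of_lt hS (inf_lt_left.2 n))
  exact c ⟨a, conj_eq_self_iff.1 (w h1 (h1.conj (mem_cz.1 (hz a)))
    (((conj_mono g (le_inf e le_normalizer)).trans (conj_eq_self_iff.2 b).le).trans inf_le_right))⟩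

theorem exists_pt' (h : Es Q z) (w : ∀ {Q' Q''}, Pt Q z Q' → Pt Q z Q'' → Q'' ≤ 𝐍(Q') → Q'' = Q') (h1 : Pt Q z Q') (hV : V ≤ Q') (hz : z ∈ V)
    (hS : IsPGroup 2 S) (s1 : S ≤ 𝐍(V)) (s2 : S ≤ 𝐂[z]) : ∃ Q'', Pt Q z Q'' ∧ V ≤ Q'' ∧ S ≤ 𝐍(Q'') := by
  have h' := h.pt' h1
  obtain ⟨T, a1, a2, a3, a4⟩ := exists_sylowIn_ge hS (le_inf s1 s2)
  obtain ⟨c, hc, e⟩ := exists_conj_le_of_not_dvd_relIndex' a4 h'.isPGroup (le_inf (h'.nrm hV hz) h'.cent)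
  have p := h1.conj (mem_cz.1 hc.2)
  exact ⟨_, p, (conj_eq_self_iff.2 hc.1).ge.trans (conj_mono c hV), a1.trans (wc_two' w p a3 (a2.trans inf_le_right) e)⟩

theorem Pt.card (h : Pt Q z Q') : Nat.card Q' = Nat.card Q := let ⟨x, _, e⟩ := h; e ▸ card_conj x Q

theorem Es.Cm_inf (h : Es Q z) (h' : Es Q' z) (hy : y ∈ Q' ⊓ 𝐍(Q)) (h2 : Q ≤ 𝐍(Q')) : Cm Q z y ≤ Q' :=
  h.Cm_le' hy.2 h'.mem fun _ hk => commutator_mem_of_mem_normalizer (h2 hk) hy.1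

theorem Es.inf_Fx (h : Es Q z) (h' : Es Q' z) (hy : y ∈ Q') : Q ⊓ Q' ≤ Fx Q z y := fun _ hk => h.mem_Fx.2 ⟨hk.1, h'.commutator_mem hk.2 hy⟩

namespace Nl

variable (h : Nl N t z Q)
include h

/-- `I = Q ⊓ Q'`, `⁅Q, Q'⁆ ≤ I ≤ Fx Q z y`, `Cm Q z y ≤ I` (`exists_comm`).  If `|Fx Q z y| = 32` (`dich`) then `I = Cm = Fx` is abelian of order `32`,
so `Q' ⊓ C(I) = I` (`perp_card` in `Q'`), but `y ∈ C(Cm)` (`Cm_cen`). -/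
theorem mut_root (hQ : Pt Q z Q') (h1 : Q' ≤ 𝐍(Q)) (h2 : Q ≤ 𝐍(Q')) (hy : y ∈ Q') (y1 : y ∉ Q) :
    Sg Q y ∧ Nat.card (Fx Q z y) = 128 ∧ ∃ d, Zt t z d ∧ d ∈ 𝐍(Q) ∧ ⁅y, d⁆ ∈ Q := by
  obtain ⟨_, -, h'⟩ := h.pt hQ
  obtain ⟨s, e⟩ := h.dich (h1 hy) (h'.le hy) (h'.sq hy) y1
  refine ⟨s, e.resolve_left fun ⟨c, _⟩ => y1 ?_⟩
  have e := h.Cm_eq (h1 hy) (h.zq (h'.sq hy)) c
  have l := h.Cm_inf h'.toEs ⟨hy, h1 hy⟩ h2
  have := h'.perp_card l h.z_Cm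
  have c' := (congrArg (fun A : Subgroup G => Nat.card A) e).trans c
  rw [h'.card, c'] at this
  exact Cm_le ((eq_of_le_of_card_ge (K := Q' ⊓ 𝐂(Cm Q z y)) (le_inf l fun x m v n => m.2 v (e.le n)) (by omega)).ge
    ⟨hy, fun x m => mem_cz.1 (h.Cm_cen (h1 hy) (h'.sq hy) s m)⟩)

/-- `r ∈ ⁅k, a⁆ Z`, `k ∈ Q - Q'`.  If there is `f ∈ Fx Q' z k - Q` take `y = a f`.  Otherwise `|I| = 128`, `I = Fx Q z x` for all `x ∈ Q' - Q`,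
all `Cm Q z x` agree, and `I ∪ a I ≠ Q'`. -/
theorem mut_line (hQ : Pt Q z Q') (h1 : Q' ≤ 𝐍(Q)) (h2 : Q ≤ 𝐍(Q')) (ha : a ∈ Q') (a1 : a ∉ Q) (hr : r ∈ Cm Q z a) (r1 : r ∉ zpowers z) :
    ∃ y ∈ Q', y ∉ Q ∧ a⁻¹ * y ∉ Q ∧ r ∈ Cm Q z y := by
  obtain ⟨_, -, h'⟩ := h.pt hQ
  obtain ⟨k, hk, w, hw, rfl⟩ := h.exists_comm' (h1 ha) hr
  have c := (h'.mut_root hQ.symm h2 h1 hk fun e => r1 (mul_mem (h'.commutator_mem e ha) hw)).2.1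
  by_cases l : Fx Q' z k ≤ Q
  · have e : ∀ x ∈ Q', x ∉ Q → Q ⊓ Q' = Fx Q z x := fun x hx x1 => eq_of_le_of_card_ge (h.inf_Fx h'.toEs hx)
      (by rw [(h.mut_root hQ h1 h2 hx x1).2.1, ← c]; exact card_le_of_le (le_inf l Fx_le))
    by_contra! n
    have n : ∀ x ∈ Q', x ∉ Q → a⁻¹ * x ∈ Q := fun x hx x1 => by_contra fun m => n x hx x1 m (by rw [Cm, ← e x hx x1, e a ha a1]; exact hr)
    have := card_le_two (H := Q) (K := Q') fun x hx y hy x1 y1 => by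
      simpa [mul_assoc] using mul_mem (inv_mem (n _ (inv_mem hx) (by simpa))) (n y hy y1)
    rw [e a ha a1, (h.mut_root hQ h1 h2 ha a1).2.1, h'.card] at this
    omega
  · obtain ⟨f, hf, f1⟩ := SetLike.not_le_iff_exists.1 l
    have m := zcj (h'.qz ha) (inv_mem hf.2.2)
    rw [commutatorElement_inv] at m
    exact ⟨a * f, mul_mem ha hf.1, fun e => r1 (mul_mem ((mul_mem_cancel_right m).1 (cm_mul k a f ▸ h.commutator_mem hk e)) hw), by simpa,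
      mul_mem ((mul_mem_cancel_right (zpowers_le.2 h.z_Cm m)).1 (cm_mul k a f ▸ h.comm_mem (h1 (mul_mem ha hf.1)) hk)) (zpowers_le.2 h.z_Cm hw)⟩

/-- Let `a ∈ Q' - Q`, `d` from `mut_root`, `h' = of_fix : Nl N d z Q`.  `d` normalizes `R = Cm Q z a` (`Cm_conj`, `Fx_congr`) of order `8`; there is
`r ∈ (R ⊓ Fx Q z d) - Z` (`x` or `⁅x, d⁆`), and `r` commutes with `d` (`tz`) and with `Fx Q z d = Cm Q z d`.  `y` from `mut_line`, `y' = d y⁻¹ d⁻¹`,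
`c = ⁅y, d⁆ = y y'`.  `root` for `y` and for its conjugate `d y d⁻¹` (`r ∈ Cm Q z (d y d⁻¹)`) gives the hypothesis of `eich`; `faith`, `h'.fr` give `c ∈ Q`.
Now `h'.tv r a y` with `root` gives `a⁻¹ y ∈ Q`. -/
theorem mut_false (hQ : Pt Q z Q') (h1 : Q' ≤ 𝐍(Q)) (h2 : Q ≤ 𝐍(Q')) : Q' = Q := by
  by_contra n
  obtain ⟨a, ha, a1⟩ := SetLike.not_le_iff_exists.1 fun l => n (eq_of_le_of_card_ge l hQ.card.ge)
  obtain ⟨_, -, h0⟩ := h.pt hQ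
  obtain ⟨s, c, d, hd, dN, e⟩ := h.mut_root hQ h1 h2 ha a1
  have h' := h.of_fix hd .refl dN
  have dz := h.norm_comm dN
  have d2 : d * d ∈ Q := h'.t2 ▸ one_mem _
  have nd : d ∈ 𝐍(Cm Q z a) := conj_eq_self_iff.1 (by
    rw [Cm_conj, conj_eq_self_iff.2 dN, dz.mul_inv_cancel]
    exact h.Cm_congr (h1 ha) (by rw [conj_cm, ← mul_assoc]; simpa using cjN (inv_mem (h1 ha)) (inv_mem e)))
  obtain ⟨r, hr, r0, r1⟩ : ∃ r ∈ Cm Q z a, r ∈ Fx Q z d ∧ r ∉ zpowers z := by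
    obtain ⟨x, hx, x1⟩ := SetLike.not_le_iff_exists.1 fun l : Cm Q z a ≤ zpowers z => by
      have := card_le_of_le l
      have := h.card_Cm (h1 ha)
      rw [c, h.card] at this
      rw [h.card_zpowers] at *
      omega
    by_cases f : ⁅x, d⁆ ∈ zpowers z
    exacts [⟨x, hx, h.mem_Fx.2 ⟨hx.1, f⟩, x1⟩, ⟨_, cmN nd hx, h.Cm_le_Fx dN d2 (h.comm_mem dN hx.1), f⟩]
  obtain ⟨y, hy, y1, y2, ry⟩ := h.mut_line hQ h1 h2 ha a1 hr r1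
  obtain ⟨s', c', -⟩ := h.mut_root hQ h1 h2 hy y1
  have rt : ∀ {x k}, x ∈ Q' → Sg Q x → Nat.card (Fx Q z x) = 128 → r ∈ Cm Q z x → k ∈ Q → Commute k r → _ := fun hx s c m hk kr =>
    h.root (h1 hx) s (by rw [c, h.card]) m r1 hk kr
  have dr := (h'.tz r r0).symm
  have yr := (mem_cz.1 (h.Cm_cen (h1 hy) (h0.sq hy) s' ry)).symm
  have cN := mul_mem (mul_mem (mul_mem (h1 hy) dN) (inv_mem (h1 hy))) (inv_mem dN)
  obtain ⟨e1, e2⟩ := h.eich (c := ⁅y, d⁆) cN (h.mem_Fx.2 ⟨hr.1, (commutatorElement_eq_one_iff_commute.2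
    (((yr.mul_left dr).mul_left yr.inv_left).mul_left dr.inv_left).symm).symm ▸ one_mem _⟩) (h.Cm_sq (h1 ha) s hr) r1 fun k hk kr => by
      have m := inv_mem (rt hy s' c' ry (cjN (inv_mem dN) hk) ((dr.inv_left.mul_left kr).mul_left dr.inv_left.inv_left))
      rw [← (h.rz_cen (((h0.qz hy).mul_left dz).mul_left (h0.qz hy).inv_left) ((yr.mul_left dr).mul_left yr.inv_left) m).mul_inv_cancel] at m
      convert mul_mem (rt hy s' c' ry hk kr) m using 1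
      simp only [commutatorElement_def]; group
  have cN : ⁅y, d⁆ ∈ N := by
    rw [← commutatorElement_inv]; exact inv_mem (mul_mem (h.nm.conj_mem _ (h0.le hy) d) (inv_mem (h0.le hy)))
  have f : ∀ x ∈ Fx Q z d, Commute x r := ((h.Cm_eq dN d2 h'.c0).ge r0).2
  exact y2 (h'.tv r r0 a ⟨h1 ha, h0.le ha⟩ y ⟨h1 hy, h0.le hy⟩ a1 y1 e
    ((h'.fr y (h1 hy) (h.faith (mul_mem cN cN) e1)).resolve_right fun g => by rw [g, h.card] at e2; omega)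
    (fun x m => rt ha s c hr m.1 (f x m)) fun x m => rt hy s' c' ry m.1 (f x m))

/-- `swap`: `s ⋆ Q' = Q''`, `s ⋆ Q'' = Q'`; `pt`, `mut_false`. -/
theorem wc (h1 : Pt Q z Q') (h2 : Pt Q z Q'') (e : Q'' ≤ 𝐍(Q')) : Q'' = Q' :=
  wc' h.t2 (h.norm_comm h.tN) h.tN h.uniq (fun _ => h.mut_false) h1 h2 e

/-- A point contained in a `2`-group `S ≤ C(z)` is normal in it (normalizer condition in `S`, `wc`). -/
theorem wc_two (h1 : Pt Q z Q') (hS : IsPGroup 2 S) (hz : S ≤ 𝐂[z]) (e : Q' ≤ S) : S ≤ 𝐍(Q') := wc_two' h.wc h1 hS hz e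

/-- `Q' ≤ H = N(V) ⊓ C(z)`; a Sylow `2`-subgroup of `H` containing `S` contains `c ⋆ Q'` for some `c ∈ H`; `wc_two`. -/
theorem exists_pt (h1 : Pt Q z Q') (hV : V ≤ Q') (hz : z ∈ V) (hS : IsPGroup 2 S) (s1 : S ≤ 𝐍(V)) (s2 : S ≤ 𝐂[z]) :
    ∃ Q'', Pt Q z Q'' ∧ V ≤ Q'' ∧ S ≤ 𝐍(Q'') := exists_pt' h.toEs h.wc h1 hV hz hS s1 s2

end Nl

end Cfsg.Lib.S6.NL
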