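import Cfsg.Agent.Lib.S6.NB

/-!
# S3133, normality lemma for extraspecial `Q` of any order: hypotheses `Ng` (replaces `S6/NC`, `S6/ND`).
-/

set_option autoImplicit false
set_option linter.unusedSectionVars false

namespace Cfsg.Lib.S6.NL

open Subgroup Cfsg.Lib.BG Cfsg.Lib.ES Cfsg.Lib.Transfer
open scoped commutatorElement Cfsg.Lib.Transfer

variable {G : Type*} [Group G] [Finite G] {N Q Q' Q'' A V S : Subgroup G} {t z a b d k r x y : G}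

/-- `t` is free on `W` and fixes one point, involutions of `N(Q) / Q` are of type `a`, `Q` is weakly closed. -/
structure Ng (N : Subgroup G) (t z : G) (Q : Subgroup G) : Prop extends Es Q z where
  nm : N.Normal
  le : Q ≤ N
  t2 : t * t = 1
  tN : t ∈ 𝐍(Q)
  fre : Fx Q z t ≤ Cm Q z t
  uniq : ∀ y, Commute y z → y * t * y⁻¹ ∈ 𝐍(Q) → y ∈ 𝐍(Q)
  cen0 : ∀ c ∈ N ⊓ 𝐂(Fx Q z t), Odd (orderOf c) → c = 1
  sg : ∀ y ∈ 𝐍(Q), y ∈ N → y * y ∈ zpowers z → Sg Q y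
  wc0 : ∀ Q', Pt Q z Q' → Q' ≤ 𝐍(Q) → Q ≤ 𝐍(Q') → Q' = Q

/-- `Cm_le_Fx` and orders; `Q` is a `2`-group; `dich` (for `y ∈ Q` the commutators lie in `Z`); `mut_false`. -/
theorem Nl.ng (h : Nl N t z Q) : Ng N t z Q where
  toEs := h.toEs
  nm := h.nm
  le := h.le
  t2 := h.t2
  tN := h.tN
  fre := (h.Cm_eq h.tN (h.t2 ▸ one_mem _) h.c0).ge
  uniq := h.uniq
  cen0 c hc o := by
    obtain ⟨n, e⟩ := (IsPGroup.iff_orderOf.1 h.isPGroup) ⟨c, h.cen0 hc⟩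
    rw [orderOf_mk] at e
    rcases n with _ | n
    · exact orderOf_eq_one_iff.1 e
    · exact absurd (e ▸ o) (Nat.not_odd_iff_even.2 (even_iff_two_dvd.2 (dvd_pow_self 2 n.succ_ne_zero)))
  sg y hy hN y2 := by
    by_cases e : y ∈ Q
    exacts [fun k hk => h.z2 (h.commutator_mem hk e), (h.dich hy hN y2 e).1]
  wc0 _ := h.mut_false

/-- `⁅k, y⁆ = k * (y k⁻¹ y⁻¹)`; both sides say that `⁅x, k⁆ = ⁅x, y k y⁻¹⁆`, and `⁅x, y k y⁻¹⁆ = ⁅y⁻¹ x y, k⁆`, `y⁻¹ x y ∈ y x y⁻¹ Z`. -/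
theorem Es.adj (h : Es Q z) (hy : y ∈ 𝐍(Q)) (y2 : y * y ∈ Q) (hk : k ∈ Q) (hx : x ∈ Q) : Commute x ⁅k, y⁆ ↔ Commute k ⁅x, y⁆ := by
  obtain ⟨w, m, e⟩ := h.comm_congr' (b := y) (inv_mem hy) (by rwa [inv_inv]) hx
  rw [h.cm_cm hy hk hx, e, h.cm hk (cmN (inv_mem hy) hx) (h.zq m), iff_true_intro (zc (h.qz hk) m), iff_true]

namespace Ng

variable (h : Ng N t z Q)
include h

theorem conj' (g : G) : Ng (g ⋆ N) (g * t * g⁻¹) (g * z * g⁻¹) (g ⋆ Q) where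
  toEs := h.toEs.conj' g
  nm := h.nm.map _ (MulAut.conj g).surjective
  le := conj_mono g h.le
  t2 := by rw [conj_mul, h.t2, mul_one, mul_inv_cancel]
  tN := by rw [← conj_normalizer, conj_mem_conj]; exact h.tN
  fre := by rw [← Fx_conj, ← Cm_conj]; exact conj_mono g h.fre
  uniq := all_conj g (by simpa only [← conj_normalizer, conj_mem_conj, Commute.conj_iff, conj_mul, conj_inv] using h.uniq)
  cen0 := all_conj g (by
    simpa only [← Fx_conj, ← conj_centralizer, ← conj_inf, conj_mem_conj, orderOf_conj_eq, conj_eq_one_iff] using h.cen0)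
  sg := all_conj g fun y => by
    simp only [← conj_normalizer, conj_mem_conj, conj_mul, ← conj_zpowers]
    exact fun a1 a2 a3 => all_conj g (by
      simpa only [conj_mem_conj, ← conjugate_commutatorElement, conj_mul, conj_eq_one_iff, Sg] using h.sg y a1 a2 a3)
  wc0 Q' := by
    rintro ⟨y, hy, rfl⟩ a b
    obtain ⟨y, rfl⟩ := (MulAut.conj g).surjective y
    rw [MulAut.conj_apply, conj_conj, inv_mul_cancel_right, ← conj_conj] at *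
    rw [← conj_normalizer, conj_le_conj_iff] at a b
    rw [h.wc0 _ ⟨y, (Commute.conj_iff g).1 hy, rfl⟩ a b]

theorem conj (hy : Commute y z) : Ng N (y * t * y⁻¹) z (y ⋆ Q) := by
  have := h.nm
  simpa only [hy.mul_inv_cancel, conj_eq_self_of_normal] using h.conj' y

theorem pt (hQ : Pt Q z Q') : ∃ d, Zt t z d ∧ Ng N d z Q' := let ⟨y, a, b⟩ := hQ; ⟨_, ⟨y, a, rfl⟩, b ▸ h.conj a⟩

/-- As `Nl.one`. -/
theorem one (hd : Zt t z d) (h1 : Pt Q z Q') (h2 : Pt Q z Q'') (a1 : d ∈ 𝐍(Q')) (a2 : d ∈ 𝐍(Q'')) : Q' = Q'' := by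
  obtain ⟨x, hx, rfl⟩ := hd
  rw [one' h.uniq hx h1 a1, one' h.uniq hx h2 a2]

theorem of_fix (hd : Zt t z d) (h1 : Pt Q z Q') (a1 : d ∈ 𝐍(Q')) : Ng N d z Q' := by
  obtain ⟨x, hx, rfl⟩ := hd
  exact one' h.uniq hx h1 a1 ▸ h.conj hx

theorem tz : Commute t z := h.norm_comm h.tN

/-- As `Nl.swap`. -/
theorem swap (h1 : Pt Q z Q') (h2 : Pt Q z Q'') : ∃ s, Zt t z s ∧ s ⋆ Q' = Q'' ∧ s ⋆ Q'' = Q' := swap' h.t2 h.tz h.tN h.uniq h1 h2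

/-- `fre`, `exists_comm`: `k t k⁻¹ = ⁅k, t⁆ t`. -/
theorem conj_t (hr : r ∈ Fx Q z t) : ∃ k ∈ Q, r * t = k * t * k⁻¹ ∨ r * z * t = k * t * k⁻¹ := h.conj_t' h.tN (h.fre hr)

/-- `swap`: `s ⋆ Q' = Q''`, `s ⋆ Q'' = Q'`; `pt`, `wc0`. -/
theorem wc (h1 : Pt Q z Q') (h2 : Pt Q z Q'') (e : Q'' ≤ 𝐍(Q')) : Q'' = Q' := wc' h.t2 h.tz h.tN h.uniq h.wc0 h1 h2 e

/-- A point contained in a `2`-group `S ≤ C(z)` is normal in it (normalizer condition in `S`, `wc`). -/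
theorem wc_two (h1 : Pt Q z Q') (hS : IsPGroup 2 S) (hz : S ≤ 𝐂[z]) (e : Q' ≤ S) : S ≤ 𝐍(Q') := wc_two' h.wc h1 hS hz e

/-- `Q' ≤ H = N(V) ⊓ C(z)`; a Sylow `2`-subgroup of `H` containing `S` contains `c ⋆ Q'` for some `c ∈ H`; `wc_two`. -/
theorem exists_pt (h1 : Pt Q z Q') (hV : V ≤ Q') (hz : z ∈ V) (hS : IsPGroup 2 S) (s1 : S ≤ 𝐍(V)) (s2 : S ≤ 𝐂[z]) :
    ∃ Q'', Pt Q z Q'' ∧ V ≤ Q'' ∧ S ≤ 𝐍(Q'') := exists_pt' h.toEs h.wc h1 hV hz hS s1 s2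

end Ng

end Cfsg.Lib.S6.NL
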