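import Cfsg.Agent.Lib.S6.NE

/-!
# S3133, normality lemma: `Q` is strongly closed.  `X = Q ⊓ N(Q')`, `X' = Q' ⊓ N(Q)`, `I = Q ⊓ Q'`, `ρ = ⁅X, X'⁆ ⊔ Z ≤ I`, `R = Q ⊓ C(X)`.
-/

set_option autoImplicit false
set_option linter.unusedSectionVars false

namespace Cfsg.Lib.S6.NL

open Subgroup Cfsg.Lib.BG Cfsg.Lib.ES Cfsg.Lib.Transfer
open scoped commutatorElement Cfsg.Lib.Transfer

variable {G : Type*} [Group G] [Finite G] {N Q Q' Q'' A V S : Subgroup G} {t z a b d k r x y : G}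

theorem onto_aux {B C D : Subgroup G} (f : G → G) (hf : ∀ x ∈ A, f x ∈ B) (i : ∀ x ∈ A, ∀ y ∈ A, (f x)⁻¹ * f y ∈ D → x⁻¹ * y ∈ C) :
    C.relIndex A ≤ D.relIndex B ∧ (D.relIndex B ≤ C.relIndex A → ∀ b ∈ B, ∃ x ∈ A, (f x)⁻¹ * b ∈ D) := by
  let g : A ⧸ C.subgroupOf A → B ⧸ D.subgroupOf B := fun c => QuotientGroup.mk ⟨_, hf _ c.out.2⟩
  have j : Function.Injective g := fun c d e => by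
    rw [← c.out_eq', ← d.out_eq']
    exact QuotientGroup.eq.2 (i _ c.out.2 _ d.out.2 ((QuotientGroup.eq (s := D.subgroupOf B)).1 e))
  exact ⟨Nat.card_le_card_of_injective g j, fun l b hb =>
    let ⟨c, e⟩ := (j.bijective_of_nat_card_le l).2 (QuotientGroup.mk ⟨b, hb⟩); ⟨_, c.out.2, (QuotientGroup.eq (s := D.subgroupOf B)).1 e⟩⟩

namespace Ng

variable (h : Ng N t z Q)
include h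

/-- Choose a bad `Q'` with `|Q ⊓ N(Q')|` maximal.  For `y`: `W = {k ∈ Q | ⁅k, y⁆ ∈ I}` (`I` is normal in `Q`) is a subgroup containing `X` and normalizing
`V = I ⊔ ⟨y⟩ ≤ Q'`; `exists_pt` gives a bad `Q''` with `W ≤ Q ⊓ N(Q'')`. -/
theorem exists_max (hQ : Pt Q z Q'') (hb : ¬ Q'' ⊓ 𝐍(Q) ≤ Q) : ∃ Q', Pt Q z Q' ∧ ¬ Q' ⊓ 𝐍(Q) ≤ Q ∧
    ∀ y ∈ Q' ⊓ 𝐍(Q), y ∉ Q → ∀ k ∈ Q, ⁅k, y⁆ ∈ Q' → k ∈ 𝐍(Q') := by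
  obtain ⟨P, ⟨a, b⟩, m⟩ := Set.exists_max_image {P | Pt Q z P ∧ ¬ P ⊓ 𝐍(Q) ≤ Q} (fun P => Nat.card ↥(Q ⊓ 𝐍(P))) (Set.toFinite _) ⟨_, hQ, hb⟩
  refine ⟨P, a, b, fun y hy y1 k hk e => ?_⟩
  have zI : z ∈ Q ⊓ P := ⟨h.mem, (h.pt' a).mem⟩
  have w : ∀ k ∈ Q, ⁅k, y⁆ ∈ P → k ∈ Q ⊓ 𝐍(Q ⊓ P ⊔ zpowers y) := fun k hk e => ⟨hk, mem_normalizer_of_conj_le (by
    rw [conj_sup, conj_eq_self_iff.2 (h.nrm inf_le_left zI hk), conj_zpowers, PGroup.conj_eq_commutator_mul]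
    exact sup_le le_sup_left (zpowers_le.2 (mul_mem_sup ⟨cmN hy.2 hk, e⟩ (mem_zpowers y))))⟩
  obtain ⟨P', c, d, f⟩ := h.exists_pt a (sup_le inf_le_right (zpowers_le.2 hy.1)) (mem_sup_left zI) (h.isPGroup.to_le inf_le_left)
    inf_le_right (inf_le_left.trans h.cent)
  have l : Q ⊓ 𝐍(P) ≤ Q ⊓ 𝐍(P') := fun x hx => ⟨hx.1, f (w x hx.1 (commutator_mem_of_mem_normalizer hx.2 hy.1))⟩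
  exact ((eq_of_le_of_card_ge l (m P' ⟨c, fun g => y1 (g ⟨d (mem_sup_right (mem_zpowers y)), hy.2⟩)⟩)).ge ⟨hk, f (w k hk e)⟩).2

theorem sg' (hQ : Pt Q z Q') (hy : y ∈ Q' ⊓ 𝐍(Q)) : Sg Q y := let ⟨_, _, h'⟩ := h.pt hQ; h.sg y hy.2 (h'.le hy.1) (h'.sq hy.1)

variable (hQ : Pt Q z Q') (hm : ∀ y ∈ Q' ⊓ 𝐍(Q), y ∉ Q → ∀ k ∈ Q, ⁅k, y⁆ ∈ Q' → k ∈ 𝐍(Q'))
include hQ hm

/-- `⁅k, y⁆ ∈ Cm Q z y ≤ Fx Q z y ≤ X` (for `y ∈ I` it lies in `Z`), and `I ≤ Fx Q z y`. -/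
theorem comm_X (hk : k ∈ Q) (hy : y ∈ Q' ⊓ 𝐍(Q)) : ⁅k, y⁆ ∈ Q ⊓ 𝐍(Q') ∧ ⁅k, y⁆ ∈ 𝐂(Q ⊓ Q') := by
  have h' := h.pt' hQ
  have c := h.comm_mem hy.2 hk
  refine ⟨⟨c.1, ?_⟩, fun x m => c.2 x (h.inf_Fx h' hy.1 m)⟩
  by_cases e : y ∈ Q
  exacts [le_normalizer (h'.zq (h.commutator_mem hk e)), hm y hy e _ c.1 (h'.zq (h.Cm_le_Fx hy.2 (h.zq (h'.sq hy.1)) c).2.2)]

/-- `|X| = |X'|` (`swap`), `⁅X, X'⁆ ≤ I`, and `y ↦ ⁅k, y⁆ I` is a homomorphism `X' → X / I` with kernel `I` (`⁅k, y y'⁆ = ⁅k, y⁆ * y ⁅k, y'⁆ y⁻¹`). -/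
theorem onto (hk : k ∈ Q) (k1 : k ∉ 𝐍(Q')) (ha : a ∈ Q ⊓ 𝐍(Q')) : ∃ y ∈ Q' ⊓ 𝐍(Q), ⁅k, y⁆⁻¹ * a ∈ Q' := by
  obtain ⟨s, -, s1, s2⟩ := h.swap .refl hQ
  refine (onto_aux (C := Q) (fun y => ⁅k, y⁆) (fun y hy => (h.comm_X hQ hm hk hy).1) fun x hx y hy e => ?_).2 ?_ a ha
  · by_contra n
    refine k1 (hm _ (mul_mem (inv_mem hx) hy) n k hk ?_)
    convert cjN (inv_mem (le_normalizer hx.1)) e using 1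
    simp only [commutatorElement_def]; group
  · rw [← relIndex_conj s Q, conj_inf, conj_normalizer, s1, s2]

/-- The generators of `ρ` are involutions (`sg`) of `I` centralizing `I` (`comm_X`); `X = {⁅k, y⁆} I` (`onto`) centralizes `ρ`. -/
theorem rho (hk : k ∈ Q) (k1 : k ∉ 𝐍(Q')) : ⁅Q ⊓ 𝐍(Q'), Q' ⊓ 𝐍(Q)⁆ ⊔ zpowers z ≤ Q ⊓ Q' ⊓ 𝐂(Q ⊓ 𝐍(Q')) ∧
    ∀ r ∈ ⁅Q ⊓ 𝐍(Q'), Q' ⊓ 𝐍(Q)⁆ ⊔ zpowers z, r * r = 1 := by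
  let E : Subgroup G :=
    { carrier := {r | r ∈ Q ⊓ Q' ⊓ 𝐂(Q ⊓ 𝐍(Q')) ∧ r * r = 1}
      one_mem' := ⟨one_mem _, one_mul 1⟩
      mul_mem' := fun {a b} ha hb => ⟨mul_mem ha.1 hb.1, by
        rw [Commute.mul_mul_mul_comm (ha.1.2 b ⟨hb.1.1.1, le_normalizer hb.1.1.2⟩), ha.2, hb.2, one_mul]⟩
      inv_mem' := fun ha => ⟨inv_mem ha.1, by rw [← mul_inv_rev, ha.2, inv_one]⟩ }
  have : ⁅Q ⊓ 𝐍(Q'), Q' ⊓ 𝐍(Q)⁆ ⊔ zpowers z ≤ E := sup_le (commutator_le.2 fun x hx y hy => by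
    have i : ⁅x, y⁆ ∈ Q ⊓ Q' := ⟨cmN hy.2 hx.1, commutator_mem_of_mem_normalizer hx.2 hy.1⟩
    refine ⟨⟨i, fun a ha => ?_⟩, h.sg' hQ hy x hx.1⟩
    obtain ⟨v, hv, e⟩ := h.onto hQ hm hk k1 ha
    have c := h.comm_X hQ hm hk hv
    simpa only [mul_inv_cancel_left] using (Commute.mul_left (Commute.symm (c.2 _ i))
      ((h.comm_X hQ hm hx.1 hy).2 _ ⟨Q.mul_mem (Q.inv_mem c.1.1) ha.1, e⟩)).eq)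
    (zpowers_le.2 ⟨⟨⟨h.mem, (h.pt' hQ).mem⟩, fun _ m => h.comm m.1⟩, h.mul_self⟩)
  exact ⟨fun _ m => (this m).1, fun _ m => (this m).2⟩

/-- Suppose `Q ⊓ C(ρ) = X`, so `R = ρ` (`perp_perp`).  `x = ⁅k, y⁆ ∉ Q'` centralizes `I`, and `x' = ⁅k, y'⁆`: `⁅k, y y'⁆ = x * ⁅y, x'⁆ * x'` has square `1` (`sg`),
`⁅y, x'⁆ ∈ ρ` is an involution central in `X`, so `x, x', x x'` have square `1`.  By `onto`, `x ∈ R = ρ ≤ Q'`. -/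
theorem sc_a (hb : ¬ Q' ⊓ 𝐍(Q) ≤ Q) (hk : k ∈ Q) (k1 : k ∉ 𝐍(Q')) :
    ¬ Q ⊓ 𝐂(⁅Q ⊓ 𝐍(Q'), Q' ⊓ 𝐍(Q)⁆ ⊔ zpowers z) ≤ 𝐍(Q') := fun l => by
  obtain ⟨y, hy, y1⟩ := SetLike.not_le_iff_exists.1 hb
  obtain ⟨r1, r2⟩ := h.rho hQ hm hk k1
  have c := h.comm_X hQ hm hk hy
  refine k1 (hm y hy y1 k hk (r1 ((h.perp_perp (fun _ m => (r1 m).1.1) (mem_sup_right (mem_zpowers z))).le ⟨c.1.1, fun a ha => ?_⟩)).1.2)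
  obtain ⟨v, hv, e⟩ := h.onto hQ hm hk k1 ⟨ha.1, l ha⟩
  have d := h.comm_X hQ hm hk hv
  have g := inv_mem (mem_sup_left (T := zpowers z) (commutator_mem_commutator d.1 hy))
  have s := h.sg' hQ (mul_mem hy hv) k hk
  rw [cm_mul, conj_cm, ← (r1 g).2 _ d.1, ← mul_assoc ⁅k, y⁆, Commute.mul_mul_mul_comm (Commute.symm ((r1 g).2 _ (mul_mem c.1 d.1))), r2 _ g, mul_one,
    h.sq_mul c.1.1 d.1.1] at s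
  simpa only [mul_inv_cancel_left] using (Commute.mul_left (s.1 (iff_of_true (h.sg' hQ hy k hk) (h.sg' hQ hv k hk))).symm
    (c.2 _ ⟨Q.mul_mem (Q.inv_mem d.1.1) ha.1, e⟩)).eq

/-- `W₁ = Q ⊓ C(ρ) ≥ X`.  For `k₁ ∈ W₁`, `y ∈ X'`: `⁅k₁, y⁆ ∈ R` (`adj`).  For `y₀ ∈ X' - I` the map `k₁ ↦ ⁅k₁, y₀⁆ (R ⊓ I)` induces an injection `W₁ / X → R / (R ⊓ I)`,
and `|W₁ : X| = |R : ρ|` (`perp_card`), `ρ ≤ R ⊓ I`.  So `R ⊓ I = ρ` and `R = {⁅k₁, y₀⁆} ρ ≤ X`.  For `a ∈ R`, `onto` gives `a ∈ ⁅k, y⁆ ρ`, which commutes with `k`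
(`alt`).  So `k ∈ Q ⊓ C(R) = X`. -/
theorem sc_b (hb : ¬ Q' ⊓ 𝐍(Q) ≤ Q) (hk : k ∈ Q ⊓ 𝐂(⁅Q ⊓ 𝐍(Q'), Q' ⊓ 𝐍(Q)⁆ ⊔ zpowers z)) : k ∈ 𝐍(Q') := by
  by_contra k1
  obtain ⟨y, hy, y1⟩ := SetLike.not_le_iff_exists.1 hb
  have r1 := (h.rho hQ hm hk.1 k1).1
  have h' := h.pt' hQ
  have zX : z ∈ Q ⊓ 𝐍(Q') := ⟨h.mem, le_normalizer h'.mem⟩
  have R : ∀ {y}, y ∈ Q' ⊓ 𝐍(Q) → ∀ k ∈ Q ⊓ 𝐂(⁅Q ⊓ 𝐍(Q'), Q' ⊓ 𝐍(Q)⁆ ⊔ zpowers z), ⁅k, y⁆ ∈ Q ⊓ 𝐂(Q ⊓ 𝐍(Q')) := fun hy k hk =>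
    ⟨cmN hy.2 hk.1, fun x m => (h.adj hy.2 (h.zq (h'.sq hy.1)) hk.1 m.1).2
      (Commute.symm (hk.2 _ (mem_sup_left (commutator_mem_commutator m hy))))⟩
  obtain ⟨o1, o2⟩ := onto_aux (C := 𝐍(Q')) (D := Q') _ (R hy) fun a ha b hb e => hm y hy y1 _ (Q.mul_mem (Q.inv_mem ha.1) hb.1) (by
    refine (?_ : _ ∈ Q ⊓ Q').2
    convert cjN (h.nrm inf_le_left ⟨h.mem, h'.mem⟩ (Q.mul_mem (Q.inv_mem ha.1) (cmN hy.2 ha.1)))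
      (show _ ∈ Q ⊓ Q' from ⟨Q.mul_mem (Q.inv_mem (cmN hy.2 ha.1)) (cmN hy.2 hb.1), e⟩) using 1
    simp only [commutatorElement_def]; group)
  have c1 := h.perp_card (fun _ m => (r1 m).1.1) (mem_sup_right (mem_zpowers z))
  have l : _ ≤ Q' ⊓ (Q ⊓ 𝐂(Q ⊓ 𝐍(Q'))) := fun _ m => ⟨(r1 m).1.2, (r1 m).1.1, (r1 m).2⟩
  have e : 𝐍(Q') ⊓ (Q ⊓ 𝐂(⁅Q ⊓ 𝐍(Q'), Q' ⊓ 𝐍(Q)⁆ ⊔ zpowers z)) = Q ⊓ 𝐍(Q') :=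
    le_antisymm (fun _ m => ⟨m.2.1, m.1⟩) fun x m => ⟨m.2, m.1, fun v n => ((r1 n).2 x m).symm⟩
  rw [← h.perp_card inf_le_left zX, ← card_mul_relIndex (inf_le_right (a := 𝐍(Q'))), ← card_mul_relIndex (H := Q ⊓ _) (inf_le_right (a := Q')),
    inf_relIndex_right, inf_relIndex_right, e, mul_assoc, mul_comm _ (Nat.card ↥(Q ⊓ 𝐍(Q'))), Nat.mul_right_inj Nat.card_pos.ne'] at c1
  have p : 0 < Q'.relIndex (Q ⊓ 𝐂(Q ⊓ 𝐍(Q'))) := Nat.pos_of_ne_zero index_ne_zero_of_finite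
  have q : 0 < Nat.card ↥(⁅Q ⊓ 𝐍(Q'), Q' ⊓ 𝐍(Q)⁆ ⊔ zpowers z) := Nat.card_pos
  have := card_le_of_le l
  refine k1 ((h.perp_perp inf_le_left zX).le ⟨hk.1, fun a ha => ?_⟩).2
  obtain ⟨v, hv, e⟩ := o2 (by nlinarith) a ha
  obtain ⟨u, hu, e⟩ := h.onto hQ hm hk.1 k1 ⟨ha.1, mul_inv_cancel_left ⁅v, y⁆ a ▸ 𝐍(Q').mul_mem (h.comm_X hQ hm hv.1 hy).1.2 (le_normalizer e)⟩
  simpa only [mul_inv_cancel_left] using (Commute.mul_left (h.alt hu.2 (h.sg' hQ hu) hk.1).symm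
    (hk.2 _ ((eq_of_le_of_card_ge l (by nlinarith)).ge ⟨e, Subgroup.mul_mem _ (Subgroup.inv_mem _ (R hu k hk)) ha⟩))).eq

omit hm in
/-- `exists_max`, `wc` (there is `k ∈ Q - X`), `sc_a`, `sc_b`. -/
theorem sc : Q' ⊓ 𝐍(Q) ≤ Q := by
  by_contra n
  obtain ⟨P, a, b, m⟩ := h.exists_max hQ n
  obtain ⟨k, hk, k1⟩ := SetLike.not_le_iff_exists.1 fun l : Q ≤ 𝐍(P) => b (inf_le_left.trans (h.wc a .refl l).ge)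
  exact h.sc_a a m b hk k1 fun _ e => h.sc_b a m b e

end Ng

end Cfsg.Lib.S6.NL
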