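import Cfsg.Agent.Lib.S6.NF

/-!
# S3133, normality lemma: `Q` is normal in `C(z)`.
-/

set_option autoImplicit false
set_option linter.unusedSectionVars false

namespace Cfsg.Lib.S6.NL

open Subgroup Cfsg.Lib.BG Cfsg.Lib.ES Cfsg.Lib.Transfer
open scoped commutatorElement Cfsg.Lib.Transfer

variable {G : Type*} [Group G] [Finite G] {N Q Q' Q'' A V S : Subgroup G} {t z a b d k r y : G}

theorem dih0 {K : Type*} [Group K] {A T : K} (A2 : A * A = 1) (T2 : T * T = 1) {m : ℕ} (e : (A * (T * A * T⁻¹)) ^ (2 * m + 1) = 1) :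
    ∃ V, V * A * V⁻¹ = T * A * T⁻¹ ∧ T * V * T⁻¹ = V ∧ ∃ g, g * A * g⁻¹ = V := by
  have B2 : T * A * T⁻¹ * (T * A * T⁻¹) = 1 := by rw [conj_mul, A2, mul_one, mul_inv_cancel]
  have i : ∀ k : ℕ, _ ^ k * A * (_ ^ k)⁻¹ = _ ^ (2 * k) * A := fun k => by exact_mod_cast Inv.zpow_conj_left A2 B2 k
  have j : T * (A * (T * A * T⁻¹)) * T⁻¹ = (A * (T * A * T⁻¹))⁻¹ := by
    rw [mul_inv_rev (a := A), Inv.inv_eq_of_mul_self A2, Inv.inv_eq_of_mul_self B2, Inv.inv_eq_of_mul_self T2]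
    simp only [mul_assoc, T2, mul_one]
  have l : (A * (T * A * T⁻¹))⁻¹ * A = T * A * T⁻¹ := by rw [mul_inv_rev, inv_mul_cancel_right, Inv.inv_eq_of_mul_self B2]
  generalize A * (T * A * T⁻¹) = R at *
  refine ⟨R ^ m * A, ?_, ?_, R ^ (m * (m + 1)), ?_⟩
  · rw [mul_inv_rev, ← mul_assoc, mul_inv_cancel_right, i, ← l, mul_left_inj, eq_inv_iff_mul_eq_one, ← pow_succ, e]
  · rw [← conj_mul, Inv.conj_pow_of_inv j, ← l, ← mul_assoc, mul_left_inj, ← mul_inv_rev, inv_eq_iff_mul_eq_one, ← pow_succ', ← pow_add, ← e]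
    congr 1; omega
  · rw [i, show 2 * (m * (m + 1)) = (2 * m + 1) * m + m by ring, pow_add, pow_mul, e, one_pow, one_mul]

theorem dih1 {K : Type*} [Group K] [Finite K] {A B : K} (A2 : A * A = 1) (B2 : B * B = 1) : (∃ n, Odd n ∧ (A * B) ^ n = 1) ∨
    ∃ W ≠ 1, W * A * W⁻¹ = A ∧ W * B * W⁻¹ = B ∧ ∃ C, C * A * C⁻¹ = W * A ∨ C * B * C⁻¹ = W * A := by
  refine (Nat.even_or_odd (orderOf (A * B))).symm.imp (fun o => ⟨_, o, pow_orderOf_eq_one _⟩) fun o => ?_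
  obtain ⟨a, b, c⟩ := Inv.half_pow_of_even A2 B2 o
  refine ⟨_, Inv.ne_one_of_orderOf a, b.mul_inv_cancel, c.mul_inv_cancel, ?_⟩
  have i := Inv.inv_eq_of_mul_self A2
  induction orderOf (A * B) / 2 using Nat.twoStepInduction with
  | zero => exact ⟨1, .inl (by simp)⟩
  | one => exact ⟨A, .inr (by rw [i, pow_one])⟩
  | more n h _ =>
    obtain ⟨C, h⟩ := h
    have : ∀ X, C * X * C⁻¹ = (A * B) ^ n * A → A * B * C * X * (A * B * C)⁻¹ = (A * B) ^ (n + 2) * A := fun X e => by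
      rw [mul_inv_rev, mul_assoc _ C, ← mul_assoc, mul_assoc _ _ C⁻¹, e, mul_inv_rev, i, Inv.inv_eq_of_mul_self B2, ← mul_assoc, ← mul_assoc,
        ← pow_succ', mul_assoc _ A B, ← pow_succ]
    exact ⟨A * B * C, h.imp (this A) (this B)⟩

/-- `v = (a b) ^ m a` where `(a b) ^ (2 m + 1) ∈ I`: modulo `I`, `v a v⁻¹ = (a b) ^ (2 m) a = b` and `t v t⁻¹ = (b a) ^ m b = v`.  Also `v` is conjugate
to `a` or `b` (`ZD.refl_conj` in `H ⧸ I`). -/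
theorem dih {H I : Subgroup G} (hI : H ≤ 𝐍(I)) (ha : a ∈ H) (ht : t ∈ H) (a2 : a * a ∈ I) (t2 : t * t = 1) {n : ℕ} (hn : Odd n)
    (e : (a * (t * a * t⁻¹)) ^ n ∈ I) : ∃ v ∈ H, (v * a * v⁻¹)⁻¹ * (t * a * t⁻¹) ∈ I ∧ ⁅t, v⁆ ∈ I ∧ ∃ g ∈ H, (g * a * g⁻¹)⁻¹ * v ∈ I := by
  have := normal_subgroupOf_of_le_normalizer hI
  obtain ⟨m, rfl⟩ := hn
  have q := fun x : H => QuotientGroup.eq_one_iff (N := I.subgroupOf H) x
  obtain ⟨V, a1, a2, g, a3⟩ := dih0 (A := ((⟨a, ha⟩ : H) : H ⧸ I.subgroupOf H)) (T := (⟨t, ht⟩ : H)) (m := m) ((q _).2 a2)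
    ((q _).2 (show t * t ∈ I from t2 ▸ one_mem I)) ((q (((⟨a, ha⟩ : H) * ((⟨t, ht⟩ : H) * (⟨a, ha⟩ : H) * (⟨t, ht⟩ : H)⁻¹)) ^ (2 * m + 1))).2 e)
  obtain ⟨v, rfl⟩ := QuotientGroup.mk_surjective V
  obtain ⟨g, rfl⟩ := QuotientGroup.mk_surjective g
  exact ⟨v, v.2, (QuotientGroup.eq (s := I.subgroupOf H)).1 a1, (q ⁅(⟨t, ht⟩ : H), v⁆).1 (mul_inv_eq_one.2 a2), g, g.2,
    (QuotientGroup.eq (s := I.subgroupOf H)).1 a3⟩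

/-- `I` is a maximal intersection of two points. -/
structure Mi (Q : Subgroup G) (z : G) (I : Subgroup G) : Prop where
  ex : ∃ Q₁ Q₂, Pt Q z Q₁ ∧ Pt Q z Q₂ ∧ Q₁ ≠ Q₂ ∧ I = Q₁ ⊓ Q₂
  mx : ∀ Q₁ Q₂, Pt Q z Q₁ → Pt Q z Q₂ → Q₁ ≠ Q₂ → I ≤ Q₁ → I ≤ Q₂ → Q₁ ⊓ Q₂ ≤ I

theorem Es.cm_sq (h : Es Q z) (hy : Commute y z) (e : ⁅r, y⁆ ∈ zpowers z) : Commute r (y * y) := (h.cm' hy e e).2 .rfl

theorem cm_z (ha : Commute a z) (e : ⁅r, a⁆ ∈ zpowers z) (f : ⁅r, b⁆ ∈ zpowers z) : ⁅r, a * b⁆ ∈ zpowers z := cm_mul r a b ▸ mul_mem e (zcj ha f)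

namespace Mi

variable {I : Subgroup G} (m : Mi Q z I)
include m

theorem eq (h1 : Pt Q z Q') (h2 : Pt Q z Q'') (i1 : I ≤ Q') (i2 : I ≤ Q'') (a1 : a ∈ Q') (a2 : a ∈ Q'') (a3 : a ∉ I) : Q' = Q'' :=
  by_contra fun n => a3 (m.mx _ _ h1 h2 n i1 i2 ⟨a1, a2⟩)

theorem mem (h : Es Q z) : z ∈ I := let ⟨_, _, a, b, _, e⟩ := m.ex; e ▸ ⟨(h.pt' a).mem, (h.pt' b).mem⟩

theorem other (P : Subgroup G) : ∃ Q', Pt Q z Q' ∧ I ≤ Q' ∧ P ≠ Q' := by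
  obtain ⟨_, _, a, b, n, rfl⟩ := m.ex
  by_contra! e
  exact n ((e _ a inf_le_left).symm.trans (e _ b inf_le_right))

theorem out (h1 : Pt Q z Q') : ∃ a ∈ Q', a ∉ I := SetLike.not_le_iff_exists.1 fun l =>
  let ⟨_, a, b, n⟩ := m.other Q'; n (eq_of_le_of_card_ge (l.trans b) (a.card.trans h1.card.symm).le)

theorem le (h : Es Q z) (h1 : Pt Q z Q') (i1 : I ≤ Q') : Q' ≤ 𝐍(I) ⊓ 𝐂[z] := le_inf ((h.pt' h1).nrm i1 (m.mem h)) (h.pt' h1).cent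

omit m in
theorem up (hy : y ∈ 𝐍(I) ⊓ 𝐂[z]) (h1 : Pt Q z Q') (i1 : I ≤ Q') : Pt Q z (y ⋆ Q') ∧ I ≤ y ⋆ Q' :=
  ⟨h1.conj (mem_cz.1 hy.2), (conj_eq_self_iff.2 hy.1).ge.trans (conj_mono y i1)⟩

theorem fix (hy : y ∈ 𝐍(I) ⊓ 𝐂[z]) (h1 : Pt Q z Q') (i1 : I ≤ Q') (ha : a ∈ Q') (a1 : a ∉ I) (e : y * a * y⁻¹ ∈ Q') : y ∈ 𝐍(Q') :=
  conj_eq_self_iff.1 (m.eq (up hy h1 i1).1 h1 (up hy h1 i1).2 i1 (conj_mem_conj.2 ha) e fun f => a1 ((mem_normalizer_iff.1 hy.1 a).2 f))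

end Mi

namespace Ng

variable (h : Ng N t z Q) {I : Subgroup G}
include h

/-- `sc` for the point `Q''`, maximality. -/
theorem mx_fix (m : Mi Q z I) (h1 : Pt Q z Q') (h2 : Pt Q z Q'') (i1 : I ≤ Q') (i2 : I ≤ Q'') (ha : a ∈ Q') (a1 : a ∉ I)
    (e : a ∈ 𝐍(Q'')) : Q'' = Q' :=
  let ⟨_, _, h'⟩ := h.pt h2; m.eq h2 h1 i2 i1 (h'.sc (h2.symm.trans h1) ⟨ha, e⟩) ha a1

/-- In `H ⧸ I`, `H = N(I) ⊓ C(z)`: if the order of `a b` is even, the central involution `w` of the dihedral group commutes with `a`, so normalizes `Q'` (`mx_fix`: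
`a` lies in `w ⋆ Q'`), and likewise `Q''`.  `w a` is conjugate to `a` or `b`, so lies in a point above `I`, which is `Q'` (`mx_fix`): `w ∈ Q'`.  Likewise `w ∈ Q''`. -/
theorem mx_odd (m : Mi Q z I) (h1 : Pt Q z Q') (h2 : Pt Q z Q'') (n : Q' ≠ Q'') (i1 : I ≤ Q') (i2 : I ≤ Q'') (ha : a ∈ Q') (a1 : a ∉ I)
    (hb : b ∈ Q'') (b1 : b ∉ I) : ∃ n, Odd n ∧ (a * b) ^ n ∈ I := by
  have := normal_subgroupOf_of_le_normalizer (inf_le_left : 𝐍(I) ⊓ 𝐂[z] ≤ _)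
  have q := fun x : ↥(𝐍(I) ⊓ 𝐂[z]) => QuotientGroup.eq_one_iff (N := I.subgroupOf _) x
  have E := fun x y : ↥(𝐍(I) ⊓ 𝐂[z]) => (QuotientGroup.eq (s := I.subgroupOf _) (a := x) (b := y)).1
  have aH := m.le h.toEs h1 i1 ha
  have bH := m.le h.toEs h2 i2 hb
  have zI := zpowers_le.2 (m.mem h.toEs)
  rcases dih1 (A := QuotientGroup.mk (s := I.subgroupOf _) ⟨a, aH⟩) (B := QuotientGroup.mk ⟨b, bH⟩) ((q _).2 (zI ((h.pt' h1).sq ha)))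
    ((q _).2 (zI ((h.pt' h2).sq hb))) with ⟨k, o, e⟩ | ⟨W, w1, w2, w3, C, e⟩
  · exact ⟨k, o, (q (((⟨a, aH⟩ : ↥(𝐍(I) ⊓ 𝐂[z])) * (⟨b, bH⟩ : ↥(𝐍(I) ⊓ 𝐂[z]))) ^ k)).1 e⟩
  obtain ⟨w, rfl⟩ := QuotientGroup.mk_surjective W
  obtain ⟨c, rfl⟩ := QuotientGroup.mk_surjective C
  have f : ∀ {P x} (p : Pt Q z P) (i : I ≤ P) (hx : x ∈ P), x ∉ I → x⁻¹ * (w * x * w.1⁻¹) ∈ I → w.1 ∈ 𝐍(P) := fun p i hx x1 e =>
    m.fix w.2 p i hx x1 ((mul_mem_cancel_left (inv_mem hx)).1 (i e))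
  have n1 := f h1 i1 ha a1 (E _ _ w2.symm)
  have g : ∀ {P x} (p : Pt Q z P) (i : I ≤ P) (hx : x ∈ P), x ∉ I → (c * x * c.1⁻¹)⁻¹ * (w * a) ∈ I → w * a ∈ Q' := fun p i hx x1 e => by
    obtain ⟨u1, u2⟩ := Mi.up c.2 p i
    have := (mul_mem_cancel_left (inv_mem (conj_mem_conj.2 hx))).1 (u2 e)
    rwa [← h.mx_fix m u1 h1 u2 i1 this (fun f => x1 ((mem_normalizer_iff.1 c.2.1 _).2 (inv_mem_iff.1 ((mul_mem_cancel_right f).1 e))))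
      (mul_mem n1 (le_normalizer ha))] at this
  exact absurd (h.mx_fix m h1 h2 i1 i2 ((mul_mem_cancel_right ha).1 (e.elim (fun e => g h1 i1 ha a1 (E _ _ e)) fun e => g h2 i2 hb b1 (E _ _ e)))
    (fun e => w1 ((q w).2 e)) (f h2 i2 hb b1 (E _ _ w3.symm))).symm n

/-- The element `s` of `swap` normalizes `I = Q₁ ⊓ Q₂`; `exists_pt`. -/
theorem mx_pt (m : Mi Q z I) : ∃ d Q', Zt t z d ∧ Pt Q z Q' ∧ I ≤ Q' ∧ d ∈ 𝐍(Q') ∧ d ∈ 𝐍(I) := by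
  obtain ⟨_, _, a, b, -, e⟩ := m.ex
  obtain ⟨s, c, s1, s2⟩ := h.swap a b
  have n : s ∈ 𝐍(I) := conj_eq_self_iff.1 (by rw [e, conj_inf, s1, s2, inf_comm])
  obtain ⟨P, p, i, l⟩ := h.exists_pt a (e.le.trans inf_le_left) (m.mem h.toEs) (Inv.isPGroup_zpowers_of_mul_self (c.sq h.t2)) (zpowers_le.2 n)
    (zpowers_le.2 (mem_cz.2 (c.comm h.tz)))
  exact ⟨s, P, c, p, i, l (mem_zpowers s), n⟩

/-- `a ∈ Q - I`, `b ∈ Q' - I` for another point `Q' ≥ I`, `x = (a b) ^ 2 ^ j` of odd order.  `a, b` centralize `I / Z`, so `x * x` centralizes `I`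
(`x i x⁻¹ ∈ i Z`), `x * x ∈ N ⊓ C(Fx)` is trivial (`cen0`), `x = 1`.  With `mx_odd`: `a b ∈ I`, `b ∈ Q ⊓ Q' ≤ I`. -/
theorem mx_not (m : Mi Q z I) (i : I ≤ Q) : ¬ Fx Q z t ≤ I := fun l => by
  obtain ⟨P, p, j, n⟩ := m.other Q
  obtain ⟨a, ha, a1⟩ := m.out .refl
  obtain ⟨b, hb, b1⟩ := m.out p
  obtain ⟨_, -, h'⟩ := h.pt p
  obtain ⟨k, o, e⟩ := h.mx_odd m .refl p n i j ha a1 hb b1
  have N1 := mul_mem (h.le ha) (h'.le hb)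
  obtain ⟨u, v, hv, f⟩ := Nat.exists_eq_two_pow_mul_odd (orderOf_pos (a * b * (a * b))).ne'
  have := h.cen0 _ (pow_mem (⟨mul_mem N1 N1, fun x hx => h.cm_sq ((h.qz ha).mul_left (h'.qz hb))
    (cm_z (h.qz ha) (h.commutator_mem (i (l hx)) ha) (h'.commutator_mem (j (l hx)) hb))⟩ : a * b * (a * b) ∈ N ⊓ 𝐂(Fx Q z t)) (2 ^ u))
    (hv.of_dvd_nat (orderOf_dvd_of_pow_eq_one (by rw [← pow_mul, ← f, pow_orderOf_eq_one])))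
  rw [← pow_two, ← pow_mul, ← pow_succ'] at this
  obtain ⟨c, g⟩ := exists_pow_eq_self_of_coprime (((Nat.coprime_two_right.2 o).pow_right _).coprime_dvd_right (orderOf_dvd_of_pow_eq_one this))
  exact n (m.eq .refl p i j ((mul_mem_cancel_left ha).1 (g ▸ i (pow_mem e c))) hb b1)

theorem mx_rad' (m : Mi Q z I) (i : I ≤ Q) (ha : a ∈ Q) (hd : d ∈ Q) (a1 : a ∉ I) (d1 : d ∉ I) (e : a * d ∉ I) : I ⊓ 𝐂(I) ≤ zpowers z := fun r hr => by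
  obtain ⟨P, p, j, n⟩ := m.other Q
  obtain ⟨b, hb, b1⟩ := m.out p
  have h' := h.pt' p
  have f : ∀ k ∈ Q, k ∉ I → (Commute r k ↔ Commute r b) := fun k hk k1 => by
    obtain ⟨_, ⟨u, rfl⟩, e⟩ := h.mx_odd m .refl p n i j hk k1 hb b1
    have c1 := h.commutator_mem (i hr.1) hk
    have c2 := h'.commutator_mem (j hr.1) hb
    have := ((h.cm_sq ((h.qz hk).mul_left (h'.qz hb)) (cm_z (h.qz hk) c1 c2)).pow_right u).inv_right.mul_right (Commute.symm (hr.2 _ e))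
    rwa [pow_succ, pow_mul, pow_two, inv_mul_cancel_left, h.cm' (h.qz hk) c1 c2] at this
  have g := (f _ (mul_mem ha hd) e).1 ((h.cm (i hr.1) ha hd).2 ((f a ha a1).trans (f d hd d1).symm))
  exact h.cen_z (i hr.1) fun k hk => (em (k ∈ I)).elim (hr.2 k) fun k1 => ((f k hk k1).2 g).symm

/-- Let `ρ ∈ I ⊓ C(I)`, `b ∈ Q' - I`.  Elements of `Q`, `Q'` map `ρ` to `ρ` or `ρ z`.  For `k ∈ Q - I` an odd power of `k b` centralizes `ρ` (`mx_odd`), so `k b` does.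
Hence `k k'` centralizes `ρ` for `k, k' ∈ Q - I`, and every element of `Q - I` is such a product as `|Q : I| ≥ 4`. -/
theorem mx_rad (m : Mi Q z I) (i : I ≤ Q) (c : 4 * Nat.card I ≤ Nat.card Q) : I ⊓ 𝐂(I) ≤ zpowers z := by
  by_contra n
  have := card_le_two (H := I) (K := Q) fun a ha b hb a1 b1 => by_contra fun e => n (h.mx_rad' m i ha hb a1 b1 e)
  rw [inf_eq_left.2 i] at this
  have : 0 < Nat.card I := Nat.card_pos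
  omega

/-- If `|Q : I| = 2` then `⁅Q, t⁆ ≤ I`, so `Fx ≤ Cm ≤ I` (`fre`, `exists_comm`): `mx_not`.  Otherwise `Q = I (Q ⊓ C(I))` (`mx_rad`, `perp_card`).  Let `α ≠ Q` be a point above `I`,
`a ∈ α - I`, `t ⋆ α ≠ α` (`one`), `v` from `mx_odd`, `dih`: `v ⋆ α = t ⋆ α` (`mx`), `v ∈ Q₁ - I` for a point `Q₁ ≥ I`, `t ⋆ Q₁ ∋ t v t⁻¹ ∈ v I`, so `t` normalizes `Q₁ = Q`.
Write `v = v' i`, `v' ∈ Q ⊓ C(I)`; `⁅v', t⁆ ∈ I ⊓ C(I) ≤ Z`.  By `conj_t`, `v' t` or `v' z t` is in the class of `t`; it normalizes `Q` and `α` (`v' ⋆ α = t ⋆ α`, `v' * v' ∈ Z`). -/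
theorem mx_false (m : Mi Q z I) (i : I ≤ Q) (ti : t ∈ 𝐍(I)) : False := by
  have zI := m.mem h.toEs
  have R : I ⊓ 𝐂(I) ≤ zpowers z := by_contra fun n => h.mx_not m i (h.fre.trans (h.Cm_le' h.tN zI fun k hk => by
    by_cases k1 : k ∈ I
    · exact cmN ti k1
    · rw [show ⁅k, t⁆ = k * (t * k⁻¹ * t⁻¹) by simp only [commutatorElement_def]; group]
      exact by_contra fun e => n (h.mx_rad' m i hk (cjN h.tN (inv_mem hk)) k1 (fun f => k1 (inv_mem_iff.1 ((mem_normalizer_iff.1 ti _).2 f))) e)))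
  have D : Q ≤ I ⊔ Q ⊓ 𝐂(I) := fun k hk => (h.perp_perp (sup_le i inf_le_left) (mem_sup_left zI)).le ⟨hk, fun x m => Commute.symm (zc (h.qz hk)
    (R ⟨(h.perp_perp i zI).le ⟨m.1, fun y n => m.2 y (mem_sup_right n)⟩, fun y n => m.2 y (mem_sup_left n)⟩))⟩
  obtain ⟨P, p, j, n⟩ := m.other Q
  obtain ⟨a, ha, a1⟩ := m.out p
  have h' := h.pt' p
  have tH : t ∈ 𝐍(I) ⊓ 𝐂[z] := ⟨ti, mem_cz.2 h.tz⟩
  have b1 : ∀ {g a}, g ∈ 𝐍(I) ⊓ 𝐂[z] → a ∉ I → g * a * g⁻¹ ∉ I := fun hg a1 f => a1 ((mem_normalizer_iff.1 hg.1 _).2 f)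
  obtain ⟨t1, t2⟩ := Mi.up tH p j
  obtain ⟨k, o, e⟩ := h.mx_odd m p t1 (fun e => n (h.one .refl .refl p h.tN (conj_eq_self_iff.1 e.symm))) j t2 ha a1 (conj_mem_conj.2 ha) (b1 tH a1)
  obtain ⟨v, hv, v1, v2, g, hg, v3⟩ := dih inf_le_left (m.le h.toEs p j ha) tH (zpowers_le.2 zI (h'.sq ha)) h.t2 o e
  obtain ⟨u1, u2⟩ := Mi.up hv p j
  have e1 := m.eq u1 t1 u2 t2 ((mul_mem_cancel_left (inv_mem (conj_mem_conj.2 ha))).1 (u2 v1)) (conj_mem_conj.2 ha) (b1 tH a1)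
  obtain ⟨g1, g2⟩ := Mi.up hg p j
  have vg := (mul_mem_cancel_left (inv_mem (conj_mem_conj.2 ha))).1 (g2 v3)
  rw [← h.one .refl .refl g1 h.tN (m.fix tH g1 g2 vg (fun f => b1 hg a1 (inv_mem_iff.1 ((mul_mem_cancel_right f).1 v3)))
    (PGroup.conj_eq_commutator_mul t v ▸ mul_mem (g2 v2) vg))] at vg
  obtain ⟨w, hw, x, hx, rfl⟩ := exists_mul_of_mem_sup' (inf_le_left.trans (h.nrm i zI)) (D vg)
  rw [← conj_conj, conj_eq_self_of_mem (j hx)] at e1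
  have F : w ∈ Fx Q z t := h.mem_Fx.2 ⟨hw.1, R ⟨?_, cmN (normalizer_le_normalizer_centralizer' I ti) hw.2⟩⟩
  · have f : ∀ u ∈ Q, u ⋆ P = t ⋆ P → ∀ k ∈ Q, u * t = k * t * k⁻¹ → False := fun u hu e k hk f =>
      n (h.one ⟨k, h.qz hk, f⟩ .refl p (mul_mem (le_normalizer hu) h.tN) (conj_eq_self_iff.1 (by
        rw [← conj_conj, ← e, conj_conj, conj_eq_self_of_mem (h'.zq (h.sq hu))])))
    obtain ⟨k, hk, e | e⟩ := h.conj_t F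
    exacts [f w hw.1 e1 k hk e, f _ (mul_mem hw.1 h.mem) (by rw [← conj_conj, conj_eq_self_of_mem h'.mem, e1]) k hk e]
  · have := inv_mem v2
    rwa [commutatorElement_inv, mul_cm, mul_mem_cancel_left (cjN (h.nrm i zI hw.1) (cmN ti hx))] at this

/-- If there are two points, take `I` of maximal order; `mx_pt`, `of_fix`, `mx_false` (`Mi` does not depend on the base point). -/
theorem normal : 𝐂[z] ≤ 𝐍(Q) := fun y hy => by_contra fun n => by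
  obtain ⟨I, a, b⟩ := Set.exists_max_image {I | ∃ Q₁ Q₂, Pt Q z Q₁ ∧ Pt Q z Q₂ ∧ Q₁ ≠ Q₂ ∧ I = Q₁ ⊓ Q₂} (fun I => Nat.card I) (Set.toFinite _)
    ⟨_, _, _, Pt.refl.conj (mem_cz.1 hy), .refl, fun e => n (conj_eq_self_iff.1 e), rfl⟩
  have m : Mi Q z I := ⟨a, fun _ _ p q n i j => (eq_of_le_of_card_ge (le_inf i j) (b _ ⟨_, _, p, q, n, rfl⟩)).ge⟩
  obtain ⟨d, P, c, p, i, d1, d2⟩ := h.mx_pt m
  obtain ⟨_, _, a1, a2, a3⟩ := a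
  exact (h.of_fix c p d1).mx_false ⟨⟨_, _, p.symm.trans a1, p.symm.trans a2, a3⟩, fun _ _ a b => m.mx _ _ (p.trans a) (p.trans b)⟩ i d2

end Ng

end Cfsg.Lib.S6.NL
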