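import Cfsg.Agent.Lib.S6.NA

/-!
# S3133: `F*(C_N(z)) = Q`.
-/

set_option autoImplicit false

namespace Cfsg.Lib.S6.NL

open Subgroup Cfsg.Lib.BG Cfsg.Lib.ES

variable {G : Type*} [Group G] [Finite G] {N Q : Subgroup G} {z : G}

theorem Es.sub (h : Es Q z) (le : Q ≤ N) : IsExtraspecial 2 (Q.subgroupOf N) :=
  have := Fact.mk Nat.prime_two
  isExtraspecial_congr (subgroupOfEquivOfLe le).symm h.es

theorem Es.ord' (h : Es Q z) (le : Q ≤ N) : orderOf (⟨z, le h.mem⟩ : N) = 2 := (orderOf_mk _ _).trans h.ord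

/-- `Q = O₂(C_N(z))` contains its centralizer in `N`. -/
theorem Es.gf (h : Es Q z) (le : Q ≤ N) [N.Normal] (n : 𝐂[z] ≤ 𝐍(Q)) (c : N ⊓ 𝐂(Q) ≤ Q)
    (o : ∀ P : Subgroup G, IsPGroup 2 P → P ≤ N ⊓ 𝐂[z] → 𝐂[z] ≤ 𝐍(P) → P ≤ Q) :
    (generalizedFittingSubgroup 𝐂[(⟨z, le h.mem⟩ : N)]).map (Subgroup.subtype _) = Q.subgroupOf N := by
  have := Fact.mk Nat.prime_two
  set z' : N := ⟨z, le h.mem⟩
  have cz : ∀ x : N, x ∈ 𝐂[z'] ↔ (x : G) ∈ 𝐂[z] := fun x => by simp only [mem_cz, commute_iff_eq, Subtype.ext_iff]; rfl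
  have e : (pCore 2 𝐂[z']).map (Subgroup.subtype _) = Q.subgroupOf N := by
    refine le_antisymm (map_le_iff_le_comap.1 (le_trans ?_ (o _ (Core.pCoreOf_isPGroup 2 (N ⊓ 𝐂[z])) (Core.pCoreOf_le ..)
      (le_trans (fun g a => mem_normalizer_iff.2 fun x => ?_) (Core.normalizer_le_normalizer_pCoreOf ..))))) ?_
    · refine Core.le_pCoreOf ?_ (fun g a => ?_) (IsPGroup.map (Core.pCoreOf_isPGroup 2 _) _)
      · rintro _ ⟨x, a, rfl⟩; exact ⟨x.2, (cz x).1 (Core.pCoreOf_le _ _ a)⟩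
      · exact le_normalizer_map N.subtype ⟨⟨g, a.1⟩, Core.le_normalizer_pCoreOf _ _ ((cz _).2 a.2), rfl⟩
    · simp only [SetLike.mem_coe, mem_inf]
      rw [mem_normalizer_iff.1 (le_normalizer a) x, mem_normalizer_iff.1 (normalizer_eq_top N ▸ mem_top g) x]
    · refine Core.le_pCoreOf (fun x a => (cz x).2 (h.cent a)) (fun g a => mem_normalizer_iff.2 fun x => ?_) (h.sub le).1.1
      exact mem_normalizer_iff.1 (n ((cz g).1 a)) x
  refine (congrArg _ (Comp.genFitting_eq_pCore_iff_centralizer_le.2 fun x a => ?_)).trans e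
  have : (x : N) ∈ Q.subgroupOf N := c ⟨x.1.2, fun k hk => by
    obtain ⟨y, b, f⟩ := e.ge (show (⟨k, le hk⟩ : N) ∈ Q.subgroupOf N from hk)
    have := congrArg (fun s : 𝐂[z'] => ((s : N) : G)) (a y b)
    rwa [show k = ((y : N) : G) from congrArg Subtype.val f.symm]⟩
  obtain ⟨y, b, f⟩ := e.ge this
  rwa [← Subtype.ext f]

theorem Es.lg (h : Es Q z) (le : Q ≤ N) [N.Normal] (n : 𝐂[z] ≤ 𝐍(Q)) (c : N ⊓ 𝐂(Q) ≤ Q)
    (o : ∀ P : Subgroup G, IsPGroup 2 P → P ≤ N ⊓ 𝐂[z] → 𝐂[z] ≤ 𝐍(P) → P ≤ Q) : Lg (Q.subgroupOf N) ⟨z, le h.mem⟩ :=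
  lg_of_genFitting (h.ord' le) (h.gf le n c o) (h.sub le)

theorem card_sub (le : Q ≤ N) : Nat.card (Q.subgroupOf N) = Nat.card Q := Nat.card_congr (subgroupOfEquivOfLe le).toEquiv

end Cfsg.Lib.S6.NL
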