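import Cfsg.Agent.Lib.S6.Z1a

/-!
# S3133, step 0: the combinatorial core (helper15).  See `docs/S62.md`.
-/

set_option autoImplicit false
set_option maxRecDepth 100000

namespace Cfsg.Lib.S6.Z

open Equiv

theorem ev_t (w : List Bool) : ev w 64 = 64 := by
  induction w with
  | nil => rfl
  | cons b w ih => rw [ev, List.foldr_cons, ← ev, ih]; revert b; decide +kernel

theorem mk_bit : ∀ p q u v w, ∀ i < 10, (mk p q u v w).testBit i = [false, false, false, false, p, true, q, u, v, w].getD i false := by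
  decide +kernel

namespace Hs
variable {H : Subgroup (Perm E)} (s : Hs H) {h φ : Perm E} {x y d : E} {w : List Bool}

theorem Dt_iff (m : h ∈ H) : Dt H (h x) ↔ Dt H x :=
  ⟨fun ⟨g, a, b⟩ => ⟨h⁻¹ * g, mul_mem (inv_mem m) a, by simp [b]⟩, fun ⟨g, a, b⟩ => ⟨h * g, mul_mem m a, by simp [b]⟩⟩

include s

theorem ev_mem (w : List Bool) : ∃ h ∈ H, ∀ x, h x = ev w x := by
  induction w with
  | nil => exact ⟨1, one_mem _, fun _ => rfl⟩
  | cons b w ih =>
    obtain ⟨g, a, e⟩ := ih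
    obtain ⟨k, a', e'⟩ := s.gen b
    exact ⟨k * g, mul_mem a' a, fun x => by rw [Perm.mul_apply, e, e']; rfl⟩

theorem Dt_rp (x : E) : Dt H x ↔ Dt H (rp (ty x)) := by
  obtain ⟨k, a, e⟩ := s.ev_mem (wd x)
  rw [← Dt_iff (x := rp _) a, e, wd_spec]

/-- The stabilizer of `h t` is conjugate to the stabilizer of `t`. -/
theorem stab (m : h ∈ H) (e : ev w (h 64) = h 64) (y : E) : ∃ z, ty z = ty y ∧ h z = ev w (h y) := by
  obtain ⟨k, a, f⟩ := s.ev_mem w
  exact ⟨(h⁻¹ * k * h) y, s.fix _ (mul_mem (mul_mem (inv_mem m) a) m) (by simp [f, e]) y, by simp [f]⟩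

/-- `d ∉ [E, K_d]`. -/
theorem lin (w : List Bool) (x : E) (e : ev w d = d ∧ ad (ev w x) x = d) : ¬ Dt H d := by
  rintro ⟨h, m, rfl⟩
  obtain ⟨x, rfl⟩ := h.surjective x
  obtain ⟨z, a, b⟩ := s.stab m e.1 x
  have k : ∀ x y, ad x y = 64 → ty x ≠ ty y := by decide +kernel
  exact k z x (h.injective (by rw [s.add h m, b, e.2])) a

section
variable (D : ∀ x, Dt H x ↔ Dm 672 x)
include D

theorem cube (m : h ∈ H) (hy : Dm 160 y) (w : List Bool) (e : ev w (h 64) = h 64) : Dm 672 (ad (h 64) (ad (h y) (ev w (h y)))) := by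
  obtain ⟨z, a, b⟩ := s.stab m e y
  have k : ∀ x, Dm 160 x → ∀ y, Dm 160 y → Dm 672 (ad 64 (ad x y)) := by decide +kernel
  rw [← b, ← s.add h m, ← s.add h m, ← D, Dt_iff m, D]
  exact k _ hy _ (by rwa [Dm, a])

omit s in
theorem pt (m : h ∈ H) (hy : Dm 160 y) : Dm 672 (h y) := by
  rw [← D, Dt_iff m, D]; revert hy; revert y; decide +kernel

/-- `t A₀` is a block. -/
theorem blk (m : h ∈ H) (e : Dm 160 (h 64)) (hy : Dm 160 y) : Dm 160 (h y) := by
  obtain ⟨k, a, f⟩ := s.ev_mem (wd (h 64))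
  obtain ⟨g, rfl⟩ : ∃ g, k * g = h := ⟨k⁻¹ * h, by simp⟩
  have m' := (mul_mem_cancel_left a).1 m
  have t : ∀ x, ty (k x) = ty x := s.fix k a (by rw [f, ev_t])
  have p : g 64 = rp (ty ((k * g) 64)) := k.injective (by rw [f (rp _), wd_spec]; rfl)
  have q : ∀ x, Dm 160 x → rp (ty x) = 64 ∨ rp (ty x) = 96 := by decide +kernel
  rw [Perm.mul_apply, Dm, t]
  rcases q _ e with c | c <;> rw [c] at p
  · rwa [s.fix g m' p]
  have k : ∀ y, Dm 672 y → Dm 672 (ad 96 (ad y (ev [true] y))) → Dm 672 (ad 96 (ad y (ev [false, true, false, false] y))) →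
    Dm 672 (ad 96 (ad y (ev [false, false, true, false, false, true, false, true, false] y))) → Dm 160 y := by decide +kernel
  refine k _ (pt D m' hy) ?_ ?_ ?_ <;> exact p ▸ s.cube D m' hy _ (by rw [p]; decide +kernel)

theorem no672 : False := by
  obtain ⟨h, m, e⟩ := (D 71).2 (by decide +kernel)
  have k : ∀ y, Dm 672 y → Dm 672 (ad 71 (ad y (ev [true, false, true, false, true, false, false, true, false, true, false, true] y))) →
    Dm 672 (ad 71 (ad y (ev [true, false, true, false, true, false, false, true, false, true, false, true, false] y))) →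
    Dm 160 y ∨ y ∈ ({71, 95, 111, 119} : Finset E) := by decide +kernel
  obtain ⟨y, a, b⟩ : ∃ y, Dm 160 y ∧ Dm 160 (h y) := by
    by_contra! n
    have q : ∀ y ∈ ({64, 72, 80, 88, 96} : Finset E), Dm 160 y := by decide +kernel
    refine absurd (Finset.card_le_card_of_injOn (s := {64, 72, 80, 88, 96}) (t := {71, 95, 111, 119}) h (fun y hy => ?_)
      h.injective.injOn) (by decide +kernel)
    refine (k _ (pt D m (q y hy)) ?_ ?_).resolve_left (n y (q y hy)) <;> exact e ▸ s.cube D m (q y hy) _ (by rw [e]; decide +kernel)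
  obtain ⟨g, c, rfl⟩ := (D y).2 (pt D (one_mem H) a)
  obtain ⟨g', c', f⟩ := (D _).2 (pt D m a)
  have z : Dm 160 (g⁻¹ 64) := Perm.perm_symm_mapsTo_of_mapsTo g (s := {x | Dm 160 x}) (fun _ => s.blk D c a) (by decide +kernel : Dm 160 64)
  have := s.blk D c' (f ▸ b) (y := (g'⁻¹ * h * g) (g⁻¹ 64)) (by
    rwa [Dm, s.fix _ (mul_mem (mul_mem (inv_mem c') m) c) (by simp [← f])])
  exact absurd (by simpa [e] using this) (by decide +kernel : ¬ Dm 160 71)

end

theorem mask : ∃ m ∈ [32, 96, 160, 992], ∀ x, Dt H x ↔ Dm m x := by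
  classical
  have z : ¬ Dt H 0 := s.lin [] 0 (by decide +kernel)
  have n1 := s.lin (d := 1) [true, false, true, false, false] 18 (by decide +kernel)
  have n2 := s.lin (d := 32) [false, true, false, false] 16 (by decide +kernel)
  have n3 := s.lin (d := 33) [true] 2 (by decide +kernel)
  have t : Dt H 64 := ⟨1, one_mem _, rfl⟩
  obtain ⟨p, q, u, v, w, D⟩ : ∃ p q u v w, ∀ x, Dt H x ↔ Dm (Z.mk p q u v w) x :=
    ⟨decide (Dt H 7), decide (Dt H 65), decide (Dt H 96), decide (Dt H 97), decide (Dt H 71), fun x => by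
      rw [s.Dt_rp, Dm, mk_bit _ _ _ _ _ _ (ty_lt x)]
      have := ty_lt x
      generalize ty x = i at this
      interval_cases i <;> simp [rp, z, n1, n2, n3, t]⟩
  have iv : ∀ h ∈ H, ∀ x, Dm (Z.mk p q u v w) (h x) = Dm (Z.mk p q u v w) x := fun h m x => by rw [Bool.eq_iff_iff, ← D, ← D, Dt_iff m]
  cases p
  · have := c1 q u v w fun d _ e => let ⟨h, m, f⟩ := (D d).2 e; f ▸ i1_inv (s.add h m) (iv h m) 64
    generalize Z.mk false q u v w = m at this D iv
    simp only [List.mem_cons, List.not_mem_nil, or_false] at this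
    rcases this with rfl | rfl | rfl | rfl | rfl | rfl
    iterate 4 exact ⟨_, by decide, D⟩
    · exact (s.no672 D).elim
    · obtain ⟨h, m, f⟩ := (D 65).2 (by decide +kernel)
      exact absurd (f ▸ i3_inv (s.add h m) (iv h m) 64) c3
  · obtain ⟨h, m, f⟩ := (D 7).2 (by clear D iv; revert q u v w; decide +kernel)
    exact absurd (f ▸ r_inv (s.add h m) (iv h m) 64) (c0 q u v w)

/-- The orbit of `t`. -/
theorem core : (∀ x, Dt H x ↔ x = 64) ∨ (∀ x, Dt H x ↔ x = 64 ∨ ty x = 6) ∨ (∀ x, Dt H x ↔ x = 64 ∨ ty x = 7) ∨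
    ∀ x, Dt H x ↔ 64 ≤ x.1 := by
  obtain ⟨m, a, D⟩ := s.mask
  simp only [List.mem_cons, List.not_mem_nil, or_false] at a
  simp only [D]
  rcases a with rfl | rfl | rfl | rfl
  exacts [.inl (by decide +kernel), .inr (.inl (by decide +kernel)), .inr (.inr (.inl (by decide +kernel))),
    .inr (.inr (.inr (by decide +kernel)))]

end Hs

end Cfsg.Lib.S6.Z
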