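import Cfsg.Agent.Lib.S6.Z0

/-!
# S3133, step 0: invariants of a subset `D` of `E` and their values (helper15).
-/

set_option autoImplicit false
set_option maxRecDepth 100000

namespace Cfsg.Lib.S6.Z

open Equiv

def r (D : E → Bool) (x : E) : ℕ := ∑ e, cond (D e && D (ad x e)) 1 0

def i1 (D : E → Bool) (d : E) : ℕ := ∑ e, cond (D e) (r D (ad d e)) 0

/-- The number of cubes through `d`. -/
def i3 (D : E → Bool) (d : E) : ℕ := ∑ x, cond (D x) (∑ y, cond (D y && D (ad d (ad x y)))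
  (∑ z, cond (D z && D (ad d (ad x z)) && D (ad d (ad y z)) && D (ad x (ad y z))) 1 0) 0) 0

/-- A union of orbits. -/
def Dm (m : ℕ) (x : E) : Bool := m.testBit (ty x)

def mk (p q u v w : Bool) : ℕ := 32 + cond p 16 0 + cond q 64 0 + cond u 128 0 + cond v 256 0 + cond w 512 0

theorem c0 : ∀ q u v w, r (Dm (mk true q u v w)) 7 ≠ r (Dm (mk true q u v w)) 64 := by decide +kernel

theorem c1 : ∀ q u v w, (∀ d ∈ [65, 96, 97, 71], Dm (mk false q u v w) d → i1 (Dm (mk false q u v w)) d = i1 (Dm (mk false q u v w)) 64) →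
    mk false q u v w ∈ [32, 96, 160, 992, 672, 480] := by decide +kernel

theorem c3 : i3 (Dm 480) 65 ≠ i3 (Dm 480) 64 := by decide +kernel

variable {D : E → Bool} {φ : Perm E} (a : ∀ x y, φ (ad x y) = ad (φ x) (φ y)) (h : ∀ x, D (φ x) = D x)
include a h

theorem r_inv (x : E) : r D (φ x) = r D x := by
  rw [r, ← Equiv.sum_comp φ]; simp only [← a, h, r]

theorem i1_inv (x : E) : i1 D (φ x) = i1 D x := by
  rw [i1, ← Equiv.sum_comp φ]; simp only [← a, h, r_inv a h, i1]

theorem i3_inv (d : E) : i3 D (φ d) = i3 D d := by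
  have k : ∀ f g : E → ℕ, (∀ x, f (φ x) = g x) → ∑ x, f x = ∑ x, g x := fun f g e => (Fintype.sum_equiv φ g f fun x => (e x).symm).symm
  refine k _ _ fun x => ?_
  rw [h, k _ _ fun y => ?_]
  rw [k _ _ fun z => ?_]
  · simp only [← a, h]; rfl
  · simp only [← a, h]

end Cfsg.Lib.S6.Z
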