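import Cfsg.Agent.Lib.S6.Z1

/-!
# S3133, case II: the translations of `t A₀` centralize `A` (helper15).
-/

set_option autoImplicit false
set_option maxRecDepth 100000

namespace Cfsg.Lib.S6.Z

open Equiv

theorem gen7 {P : E → Prop} (a : ∀ x y, P x → P y → P (ad x y)) (b : ∀ x ∈ [1, 2, 4, 8, 16, 32], P x) (x : E) (h : x.1 < 64) : P x := by
  obtain ⟨l, p, rfl⟩ := (by decide +kernel : ∀ x : E, x.1 < 64 → ∃ l ∈ [1, 2, 4, 8, 16, 32].sublists, l.foldr ad 0 = x) x h
  have q : ∀ x ∈ l, P x := fun x m => b x ((List.mem_sublists.1 p).subset m)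
  clear p h
  induction l with
  | nil => exact a 1 1 (b 1 (by decide)) (b 1 (by decide))
  | cons y l ih => exact a _ _ (q y (by simp)) (ih fun x m => q x (by simp [m]))

/-- A translation. -/
structure Tr (H : Subgroup (Perm E)) (g : Perm E) (a : E) : Prop where
  m : g ∈ H
  t : g 64 = ad 64 a
  f : ∀ x, ty x = 2 → g x = x

namespace Hs
variable {H : Subgroup (Perm E)} (s : Hs H) {g h k : Perm E} {a b x y : E} {w : List Bool}
include s

theorem triv (m : g ∈ H) (e : g 64 = 64) (f : ∀ x, ty x = 2 → g x = x) (x : E) : g x = x :=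
  (by decide +kernel : ∀ x y, ty y = ty x → (∀ a ∈ [8, 16, 24, 32, 40, 48, 56], ty (ad y a) = ty (ad x a)) → y = x) x _ (s.fix g m e x)
    fun a p => by
      nth_rw 1 [← f a ((by decide +kernel : ∀ a ∈ [8, 16, 24, 32, 40, 48, 56], ty a = 2) a p)]
      rw [← s.add g m, s.fix g m e]

theorem tr_eq (p : Tr H g a) (q : Tr H h a) (x : E) : g x = h x :=
  (Perm.inv_eq_iff_eq.1 (s.triv (g := h⁻¹ * g) (mul_mem (inv_mem q.m) p.m) (Perm.inv_eq_iff_eq.2 (p.t.trans q.t.symm))
    (fun x e => Perm.inv_eq_iff_eq.2 ((p.f x e).trans (q.f x e).symm)) x))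

theorem tr_cj (p : Tr H g a) (m : k ∈ H) (e : k 64 = 64) : Tr H (k * g * k⁻¹) (k a) where
  m := mul_mem (mul_mem m p.m) (inv_mem m)
  t := by rw [Perm.mul_apply, Perm.mul_apply, Perm.inv_eq_iff_eq.2 e.symm, p.t, s.add k m, e]
  f := k.surjective.forall.2 fun x h => by simp [p.f x (s.fix k m e x ▸ h)]

theorem tr_mul (p : Tr H g a) (q : Tr H h b) (e : ty b = 2) : Tr H (g * h) (ad a b) where
  m := mul_mem p.m q.m
  t := by rw [Perm.mul_apply, q.t, s.add g p.m, p.t, p.f b e]; exact Fin.ext (Nat.xor_assoc ..)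
  f x e := by rw [Perm.mul_apply, q.f x e, p.f x e]

theorem tr_ev (p : Tr H g 32) (w : List Bool) (e : ev w 32 = 32) (x : E) : g (ev w x) = ev w (g x) := by
  obtain ⟨k, m, f⟩ := s.ev_mem w
  have := s.tr_eq (s.tr_cj p m (by rw [f, ev_t])) (by rwa [f, e]) (k x)
  simpa [← f] using this.symm

theorem tr_ex (D : ∀ x, Dt H x ↔ x = 64 ∨ ty x = 7) : ∃ g, Tr H g 32 := by
  have st : ∀ h ∈ H, ∀ x, ty x = 2 → ty (h x) = 2 := fun h m x e => by
    have a := (D _).1 ⟨h, m, rfl⟩
    have b := (D _).1 ((Dt_iff m).2 ((D (ad 64 x)).2 (.inr (by revert x; decide +kernel))))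
    rw [s.add h m] at b
    have c : h x ≠ 0 := fun z => by
      have : h 0 = 0 := by simpa [show ad 0 0 = 0 from rfl, show ∀ y : E, ad y y = 0 from fun y => Fin.ext (Nat.xor_self _)] using s.add h m 0 0
      rw [h.injective (z.trans this.symm)] at e; exact absurd e (by decide +kernel)
    exact (by decide +kernel : ∀ d y, d = 64 ∨ ty d = 7 → ad d y = 64 ∨ ty (ad d y) = 7 → y ≠ 0 → ty y = 2) _ _ a b c
  have un : ∀ h ∈ H, ∀ w, ∃ g ∈ H, ∀ x, ev w (g x) = h x ∧ (g x = 64 → h x = 64) := fun h m w =>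
    let ⟨k, a, e⟩ := s.ev_mem w
    ⟨k⁻¹ * h, mul_mem (inv_mem a) m, fun x => ⟨by simp [← e], fun z => by rw [Perm.inv_eq_iff_eq.1 z, e, ev_t]⟩⟩
  have ei : ∀ w, Function.Injective (ev w) := fun w => let ⟨k, _, e⟩ := s.ev_mem w; funext e ▸ k.injective
  obtain ⟨h0, m0, e0⟩ := (D 96).2 (.inr (by decide +kernel))
  obtain ⟨h1, m1, e1⟩ := un h0 m0 (wd (h0 32))
  have a1 : h1 32 = 32 := ei _ ((e1 _).1.trans (by nth_rw 1 [← wd_spec (h0 32), st h0 m0 32 (by decide +kernel)]; rfl))
  obtain ⟨w2, b2, c2⟩ := (by decide +kernel : ∀ b, ty b = 2 → b ≠ 32 → ∃ w ∈ [[true, false, true, false, true, false, false, true, false, true, false], [],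
    [false, true, false, true, false, false, true, false, true, false], [true, false, false, true, false, false, true, false, true, false],
    [false, true, false, false], [false, false, true, false, false, true, false, true, false]], ev w 32 = 32 ∧ ev w 16 = b) _
    (st h1 m1 16 (by decide +kernel)) fun z => absurd (h1.injective (z.trans a1.symm)) (by decide)
  obtain ⟨h2, m2, e2⟩ := un h1 m1 w2
  have a2 : h2 32 = 32 := ei _ ((e2 _).1.trans (a1.trans c2.1.symm))
  have a2' : h2 16 = 16 := ei _ ((e2 _).1.trans c2.2.symm)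
  obtain ⟨w3, b3, c3⟩ := (by decide +kernel : ∀ b, ty b = 2 → b ≠ 32 → b ≠ 16 → b ≠ 48 → ∃ w ∈ [[], [true],
    [true, false, true, false, false, true, false, true, false, false], [false, true, false, false, true, false, true, false, false]],
    ev w 32 = 32 ∧ ev w 16 = 16 ∧ ev w 8 = b) _ (st h2 m2 8 (by decide +kernel)) (fun z => absurd (h2.injective (z.trans a2.symm)) (by decide))
    (fun z => absurd (h2.injective (z.trans a2'.symm)) (by decide)) fun z => absurd (h2.injective (z.trans (by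
      rw [show (48 : E) = ad 32 16 from rfl, s.add h2 m2, a2, a2']))) (by decide : (8 : E) ≠ 48)
  obtain ⟨h3, m3, e3⟩ := un h2 m2 w3
  have a3 : h3 32 = 32 := ei _ ((e3 _).1.trans (a2.trans c3.1.symm))
  have a3' : h3 16 = 16 := ei _ ((e3 _).1.trans (a2'.trans c3.2.1.symm))
  have a3'' : h3 8 = 8 := ei _ ((e3 _).1.trans c3.2.2.symm)
  have n : h3 64 ≠ 64 := fun z => absurd (e0.symm.trans ((e1 _).2 ((e2 _).2 ((e3 _).2 z)))) (by decide)
  have d := ((D _).1 ⟨h3, m3, rfl⟩).resolve_left n
  obtain ⟨k, a, e⟩ := s.ev_mem (wd (h3 64))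
  have p : Tr H h3 (k 32) := ⟨m3, by
    rw [e]; revert d; generalize h3 64 = d; revert d; decide +kernel, fun x q => by
    have : ∀ x, ty x = 2 → x ∈ [8, 16, 32, ad 8 16, ad 8 32, ad 16 32, ad 8 (ad 16 32)] := by decide +kernel
    have := this x q
    simp only [List.mem_cons, List.not_mem_nil, or_false] at this
    rcases this with rfl | rfl | rfl | rfl | rfl | rfl | rfl <;> simp only [s.add h3 m3, a3, a3', a3'']⟩
  exact ⟨_, by simpa using s.tr_cj p (inv_mem a) (Perm.inv_eq_iff_eq.2 (by rw [e, ev_t]))⟩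

/-- Case II: a translation which centralizes `A`. -/
theorem tr (D : ∀ x, Dt H x ↔ x = 64 ∨ ty x = 7) : ∃ g ∈ H, g 64 = 96 ∧ ∀ x, x.1 < 64 → g x = x := by
  obtain ⟨g, p⟩ := s.tr_ex D
  have t : g 64 = 96 := p.t
  have f32 := p.f 32 (by decide +kernel)
  have ga := s.add g p.m
  have g0 : g 0 = 0 := by simpa [show ad 0 0 = 0 from rfl, show ∀ y : E, ad y y = 0 from fun y => Fin.ext (Nat.xor_self _)] using ga 0 0
  have t' : g 96 = 64 := by rw [show (96 : E) = ad 64 32 from rfl, ga, t, f32]; rfl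
  have sq := s.triv (mul_mem p.m p.m) (by rw [Perm.mul_apply, t, t']) fun x e => by rw [Perm.mul_apply, p.f x e, p.f x e]
  have ne : ∀ x, x ∉ [0, 32, 64, 96] → g x ∉ [0, 32, 64, 96] := fun x a b => a (by
    simp only [List.mem_cons, List.not_mem_nil, or_false] at b ⊢
    exact b.elim (fun z => .inl (g.injective (z.trans g0.symm))) (.elim · (fun z => .inr (.inl (g.injective (z.trans f32.symm))))
      (.elim · (fun z => .inr (.inr (.inr (g.injective (z.trans t'.symm))))) fun z => .inr (.inr (.inl (g.injective (z.trans t.symm)))))))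
  have w2 := s.tr_ev p [true, false, false, true, false, false, true, false, true, false] (by decide +kernel) 1
  have w3 := s.tr_ev p [false, false, true, false, false, true, false, true, false] (by decide +kernel) 1
  have w1 := s.tr_ev p [true, false, true, false, false] (by decide +kernel) 1
  rw [show ev _ 1 = 2 by decide +kernel] at w2
  rw [show ev _ 1 = 35 by decide +kernel, show (35 : E) = ad (ad 1 2) 32 from rfl, ga, ga, f32, w2] at w3
  rw [show ev _ 1 = 1 by decide +kernel] at w1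
  have g1 : g 1 = 1 := by
    have := ne 1 (by decide)
    revert w1 w3 this; generalize g 1 = y; revert y; decide +kernel
  have g4 : g 4 = 4 := by
    have w4 := s.tr_ev p [true, false, true, false, true, false, false, true, false, true, false] (by decide +kernel) 4
    rw [show ev _ 4 = 4 by decide +kernel] at w4
    obtain ⟨k, a, e⟩ := s.ev_mem [false, false]
    obtain ⟨k', a', e'⟩ := s.ev_mem [false, false, true, false, true, false, false, true, false]
    have q := s.tr_eq (s.tr_mul p (s.tr_cj p a (by rw [e, ev_t])) (by rw [e]; decide +kernel))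
      ((show k' 32 = ad 32 (k 32) by rw [e, e']; decide +kernel) ▸ s.tr_cj p a' (by rw [e', ev_t])) 4
    have u : k⁻¹ 4 = 1 := Perm.inv_eq_iff_eq.2 (by rw [e]; decide +kernel)
    have u' : k'⁻¹ 4 = 4 := Perm.inv_eq_iff_eq.2 (by rw [e']; decide +kernel)
    simp only [Perm.mul_apply, u, u', g1] at q
    rw [e, e', show ev _ 1 = 4 by decide +kernel] at q
    have := ne 4 (by decide)
    have z := sq 4
    have c : g 4 = 4 ∨ g 4 = ad 4 64 ∨ g 4 = ad 4 96 := by revert w4 q this; generalize g 4 = y; revert y; decide +kernel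
    rcases c with c | c | c
    · exact c
    · rw [Perm.mul_apply, c, ga, c, t] at z; exact absurd z (by decide)
    · rw [Perm.mul_apply, c, ga, c, t'] at z; exact absurd z (by decide)
  refine ⟨g, p.m, t, gen7 (fun x y a b => by rw [ga, a, b]) fun x m => ?_⟩
  simp only [List.mem_cons, List.not_mem_nil, or_false] at m
  rcases m with rfl | rfl | rfl | rfl | rfl | rfl
  exacts [g1, w2.trans (by rw [g1]; decide +kernel), g4, p.f _ (by decide +kernel), p.f _ (by decide +kernel), f32]

end Hs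

end Cfsg.Lib.S6.Z
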